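import Mathlib

/-!
Passage from the rationals to the reals for Norton pairs.
-/

set_option autoImplicit false

namespace CfsgLib.MonRep

open Module Matrix Finset

variable {G : Type*} [Group G] {n : Type} [Fintype n] [DecidableEq n]

/-- rational vectors as real vectors -/
noncomputable def toR : (n → ℚ) →ₗ[ℚ] (n → ℝ) := (Algebra.linearMap ℚ ℝ).compLeft n

omit [Fintype n] [DecidableEq n] in
theorem toR_apply (x : n → ℚ) (i : n) : toR x i = (x i : ℝ) := rfl

omit [Fintype n] in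
theorem toR_single (i : n) : toR (Pi.single i (1 : ℚ)) = Pi.single i 1 := by
  funext j; simp [toR_apply, Pi.single_apply, apply_ite]

omit [DecidableEq n] in
theorem map_mulVec_toR (A : Matrix n n ℚ) (x : n → ℚ) :
    A.map (Rat.castHom ℝ) *ᵥ toR x = toR (A *ᵥ x) := by
  funext i; simp [toR_apply, mulVec, dotProduct]

omit [DecidableEq n] in
theorem comp_map_mulVec (l : ℝ →ₗ[ℚ] ℚ) (A : Matrix n n ℚ) (z : n → ℝ) :
    l.compLeft n (A.map (Rat.castHom ℝ) *ᵥ z) = A *ᵥ l.compLeft n z := by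
  funext i
  simp only [LinearMap.compLeft_apply, Function.comp_apply, mulVec, dotProduct, map_sum, map_apply]
  exact sum_congr rfl fun j _ => by rw [← smul_eq_mul (A i j), ← l.map_smul, Rat.smul_def]; rfl

theorem eq_of_dual {ι : Type*} {a : ι → ℝ} {b : ι → ℚ} (h : ∀ l : ℝ →ₗ[ℚ] ℚ, ∃ c : ℚ, ∀ i, l (a i) = c * b i) :
    ∃ c : ℝ, ∀ i, a i = c * b i := by
  by_cases h0 : ∀ i, b i = 0
  · refine ⟨0, fun i => ((Module.forall_dual_apply_eq_zero_iff ℚ _).1 fun l => ?_).trans (zero_mul _).symm⟩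
    obtain ⟨c, hc⟩ := h l
    simp [hc, h0]
  push Not at h0
  obtain ⟨j, hj⟩ := h0
  refine ⟨a j / b j, fun i => sub_eq_zero.1 ((Module.forall_dual_apply_eq_zero_iff ℚ _).1 fun l => ?_)⟩
  obtain ⟨c, hc⟩ := h l
  have : a j / b j * b i = (b i / b j) • a j := by rw [Rat.smul_def]; push_cast; ring
  rw [map_sub, this, l.map_smul, hc, hc, smul_eq_mul]
  field_simp
  ring

/-- the real form of a rational matrix representation -/
noncomputable def realRep (R : G →* Matrix n n ℚ) : Representation ℝ G (n → ℝ) :=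
  (Matrix.toLinAlgEquiv' (R := ℝ) (n := n)).toMulEquiv.toMonoidHom.comp
    ((Rat.castHom ℝ).mapMatrix.toMonoidHom.comp R)

theorem realRep_apply (R : G →* Matrix n n ℚ) (g : G) (v : n → ℝ) :
    realRep R g v = (R g).map (Rat.castHom ℝ) *ᵥ v := rfl

theorem irred_of_end [Finite G] {F V : Type*} [Field F] [CharZero F] [AddCommGroup V] [Module F V]
    (ρ : Representation F G V)
    (h : ∀ θ : Module.End F V, (∀ g x, θ (ρ g x) = ρ g (θ x)) → ∃ c : F, ∀ x, θ x = c • x)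
    (W : Submodule F V) (hW : ∀ g, W.map (ρ g) ≤ W) : W = ⊥ ∨ W = ⊤ := by
  have := Fintype.ofFinite G
  obtain ⟨W', hc⟩ := W.exists_isCompl
  let p : Module.End F V := W.subtype ∘ₗ W.projectionOnto W' hc
  have h1 : ∀ g, ∀ x ∈ W, ρ g x ∈ W := fun g x hx => hW g ⟨x, hx, rfl⟩
  obtain ⟨c, h2⟩ := h (∑ g, ρ g * p * ρ g⁻¹) fun a x => by
    simp only [LinearMap.sum_apply, map_sum, Module.End.mul_apply]
    refine (Fintype.sum_equiv (Equiv.mulLeft a) _ _ fun g => ?_).symm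
    simp only [Equiv.coe_mulLeft, _root_.mul_inv_rev, map_mul, Module.End.mul_apply,
      Representation.inv_self_apply]
  simp only [LinearMap.sum_apply, Module.End.mul_apply] at h2
  refine or_iff_not_imp_left.2 fun h0 => eq_top_iff.2 fun x _ => ?_
  obtain ⟨w, hw, w0⟩ := (Submodule.ne_bot_iff W).1 h0
  have h3 := h2 w
  rw [sum_congr rfl (g := fun _ => w) fun g _ => by
    have := Submodule.projectionOnto_apply_left hc ⟨_, h1 g⁻¹ w hw⟩
    simp only [p, LinearMap.comp_apply, this, Submodule.subtype_apply, Representation.self_inv_apply],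
    sum_const, ← Nat.cast_smul_eq_nsmul F] at h3
  have h4 : c ≠ 0 := by
    rw [← smul_left_injective F w0 h3]; simp
  rw [← W.smul_mem_iff h4, ← h2]
  exact sum_mem fun g _ => h1 _ _ (Subtype.property _)

/-- the conclusion about a Norton pair -/
def Norton {V : Type*} [AddCommGroup V] [Module ℝ V] (ρ : Representation ℝ G V) : Prop :=
  Function.Injective ρ ∧ (∀ W : Submodule ℝ V, (∀ g, W.map (ρ g) ≤ W) → W = ⊥ ∨ W = ⊤) ∧
    (∃ B : LinearMap.BilinForm ℝ V, B ≠ 0 ∧ (∀ u v, B u v = B v u) ∧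
      ∀ g u v, B (ρ g u) (ρ g v) = B u v) ∧
    ∃ m : V →ₗ[ℝ] V →ₗ[ℝ] V, m ≠ 0 ∧ (∀ u v, m u v = m v u) ∧
      (∀ g u v, m (ρ g u) (ρ g v) = ρ g (m u v)) ∧
      ∀ m' : V →ₗ[ℝ] V →ₗ[ℝ] V, (∀ g u v, m' (ρ g u) (ρ g v) = ρ g (m' u v)) → ∃ c : ℝ, m' = c • m

theorem bil_ext {W : Type*} [AddCommGroup W] [Module ℝ W] {a b : (n → ℝ) →ₗ[ℝ] (n → ℝ) →ₗ[ℝ] W}
    (h : ∀ x y, a (toR x) (toR y) = b (toR x) (toR y)) : a = b :=
  LinearMap.ext_basis (Pi.basisFun ℝ n) (Pi.basisFun ℝ n) fun i j => by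
    simpa only [Pi.basisFun_apply, toR_single] using h (Pi.single i 1) (Pi.single j 1)

theorem norton_mat [Finite G] (R : G →* Matrix n n ℚ) (hi : Function.Injective R)
    (hE : ∀ θ : Module.End ℚ (n → ℚ), (∀ g x, θ (R g *ᵥ x) = R g *ᵥ θ x) → ∃ c : ℚ, ∀ x, θ x = c • x)
    (m : (n → ℚ) →ₗ[ℚ] (n → ℚ) →ₗ[ℚ] (n → ℚ)) (m0 : m ≠ 0) (mc : ∀ u v, m u v = m v u)
    (me : ∀ g u v, m (R g *ᵥ u) (R g *ᵥ v) = R g *ᵥ m u v)
    (mu : ∀ m' : (n → ℚ) →ₗ[ℚ] (n → ℚ) →ₗ[ℚ] (n → ℚ),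
      (∀ g u v, m' (R g *ᵥ u) (R g *ᵥ v) = R g *ᵥ m' u v) → ∃ c : ℚ, m' = c • m) :
    Norton (realRep R) := by
  have := Fintype.ofFinite G
  have hR : ∀ g x, realRep R g (toR x) = toR (R g *ᵥ x) := fun g x => map_mulVec_toR _ _
  have hj : Function.Injective (toR (n := n)) := fun x y e =>
    funext fun i => Rat.cast_injective (α := ℝ) (congrFun e i)
  obtain ⟨M, hM⟩ : ∃ M : (n → ℝ) →ₗ[ℝ] (n → ℝ) →ₗ[ℝ] (n → ℝ), ∀ x y, M (toR x) (toR y) = toR (m x y) := by
    refine ⟨(Pi.basisFun ℝ n).constr ℝ fun i => (Pi.basisFun ℝ n).constr ℝ fun j =>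
      toR (m (Pi.single i 1) (Pi.single j 1)), fun x y => ?_⟩
    conv_rhs => rw [pi_eq_sum_univ' x, pi_eq_sum_univ' y]
    simp only [Basis.constr_apply_fintype, Pi.basisFun_equivFun, LinearEquiv.refl_apply, toR_apply,
      LinearMap.sum_apply, LinearMap.smul_apply, map_sum, map_smul, smul_sum, Rat.cast_smul_eq_qsmul]
    rw [sum_comm]
    exact sum_congr rfl fun _ _ => sum_congr rfl fun _ _ => smul_comm _ _ _
  refine ⟨fun a b e => hi (Matrix.ext fun i j => ?_), irred_of_end _ fun θ hθ => ?_,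
    ⟨∑ g, (dotProductBilin ℝ ℝ).compl₁₂ (realRep R g) (realRep R g), fun e => m0 ?_, fun u v => ?_,
      fun g u v => ?_⟩, M, fun e => m0 ?_, fun u v => ?_, fun g u v => ?_, fun m' hm => ?_⟩
  · simpa [realRep_apply] using congrFun (LinearMap.congr_fun e (Pi.single j 1)) i
  · obtain ⟨c, hc⟩ := eq_of_dual (a := fun p : (n → ℚ) × n => θ (toR p.1) p.2) (b := fun p => p.1 p.2)
      fun l => by
        obtain ⟨c, hc⟩ := hE (l.compLeft n ∘ₗ θ.restrictScalars ℚ ∘ₗ toR) fun g x => by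
          simp only [LinearMap.comp_apply, LinearMap.restrictScalars_apply, ← hR, hθ]
          exact comp_map_mulVec _ _ _
        exact ⟨c, fun p => congrFun (hc p.1) p.2⟩
    refine ⟨c, fun x => LinearMap.congr_fun (g := c • LinearMap.id) ((Pi.basisFun ℝ n).ext fun i => ?_) x⟩
    rw [Pi.basisFun_apply, ← toR_single]
    exact funext fun j => hc (_, j)
  · refine LinearMap.ext fun x => ?_
    have h1 := LinearMap.congr_fun₂ e (toR x) (toR x)
    simp only [LinearMap.sum_apply, LinearMap.compl₁₂_apply, dotProductBilin_apply_apply,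
      LinearMap.zero_apply] at h1
    have h2 := (sum_eq_zero_iff_of_nonneg fun g _ => sum_nonneg fun i _ => mul_self_nonneg _).1 h1 1
      (mem_univ _)
    rw [map_one, Module.End.one_apply] at h2
    rw [hj ((dotProduct_self_eq_zero.1 h2).trans (map_zero _).symm), map_zero, LinearMap.zero_apply]
  · simp only [LinearMap.sum_apply, LinearMap.compl₁₂_apply, dotProductBilin_apply_apply,
      dotProduct_comm (realRep R _ u)]
  · simp only [LinearMap.sum_apply, LinearMap.compl₁₂_apply, dotProductBilin_apply_apply]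
    exact Fintype.sum_equiv (Equiv.mulRight g) _ _ fun a => by simp
  · exact LinearMap.ext₂ fun x y => hj (by rw [← hM, e]; simp)
  · exact LinearMap.congr_fun₂ (bil_ext (a := M) (b := M.flip) fun x y => by
      rw [LinearMap.flip_apply, hM, hM, mc]) u v
  · exact LinearMap.congr_fun₂ (bil_ext (a := M.compl₁₂ (realRep R g) (realRep R g))
      (b := M.compr₂ (realRep R g)) fun x y => by
        rw [LinearMap.compl₁₂_apply, LinearMap.compr₂_apply, hR, hR, hM, hM, hR, me]) u v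
  · obtain ⟨c, hc⟩ := eq_of_dual (a := fun p : (n → ℚ) × (n → ℚ) × n => m' (toR p.1) (toR p.2.1) p.2.2)
      (b := fun p => m p.1 p.2.1 p.2.2) fun l => by
        obtain ⟨c, hc⟩ := mu (((m'.restrictScalars₁₂ ℚ ℚ).compl₁₂ toR toR).compr₂ (l.compLeft n))
          fun g x y => by
            simp only [LinearMap.compr₂_apply, LinearMap.compl₁₂_apply,
              LinearMap.restrictScalars₁₂_apply_apply, ← hR, hm]
            exact comp_map_mulVec _ _ _
        exact ⟨c, fun p => congrFun (LinearMap.congr_fun₂ hc p.1 p.2.1) p.2.2⟩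
    exact ⟨c, bil_ext fun x y => by
      rw [LinearMap.smul_apply, LinearMap.smul_apply, hM]; exact funext fun j => hc (x, y, j)⟩

theorem norton_of_rat [Finite G] {V : Type} [AddCommGroup V] [Module ℚ V] [FiniteDimensional ℚ V]
    (σ : Representation ℚ G V) {k : ℕ} (hk : finrank ℚ V = k) (hi : Function.Injective σ)
    (hE : ∀ θ : Module.End ℚ V, (∀ g x, θ (σ g x) = σ g (θ x)) → ∃ c : ℚ, ∀ x, θ x = c • x)
    (m : V →ₗ[ℚ] V →ₗ[ℚ] V) (m0 : m ≠ 0) (mc : ∀ u v, m u v = m v u)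
    (me : ∀ g u v, m (σ g u) (σ g v) = σ g (m u v))
    (mu : ∀ m' : V →ₗ[ℚ] V →ₗ[ℚ] V, (∀ g u v, m' (σ g u) (σ g v) = σ g (m' u v)) →
      ∃ c : ℚ, m' = c • m) : ∃ ρ : Representation ℝ G (Fin k → ℝ), Norton ρ := by
  let b := Module.finBasisOfFinrankEq ℚ V hk
  let e := b.equivFun
  let R : G →* Matrix (Fin k) (Fin k) ℚ := (LinearMap.toMatrixAlgEquiv b).toMulEquiv.toMonoidHom.comp σ
  have h1 : ∀ g x, R g *ᵥ e x = e (σ g x) := fun g x => LinearMap.toMatrix_mulVec_repr b b (σ g) x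
  have h2 : ∀ g x, e.symm (R g *ᵥ x) = σ g (e.symm x) := fun g x => by
    rw [LinearEquiv.symm_apply_eq, ← h1, e.apply_symm_apply]
  refine ⟨_, norton_mat R ((LinearMap.toMatrixAlgEquiv b).injective.comp hi) (fun θ hθ => ?_)
    ((m.compl₁₂ e.symm e.symm).compr₂ e) (fun a => m0 (LinearMap.ext₂ fun x y => ?_))
    (fun u v => by simp [mc (e.symm u)]) (fun g u v => by simp [h1, h2, me]) fun m' hm => ?_⟩
  · obtain ⟨c, hc⟩ := hE (e.symm ∘ₗ θ ∘ₗ e) fun g x => by simp [← h1, hθ, h2]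
    exact ⟨c, fun x => e.symm.injective (by simpa using hc (e.symm x))⟩
  · simpa using LinearMap.congr_fun₂ a (e x) (e y)
  · obtain ⟨c, hc⟩ := mu ((m'.compl₁₂ e e).compr₂ e.symm) fun g x y => by simp [← h1, hm, h2]
    exact ⟨c, LinearMap.ext₂ fun x y => e.symm.injective (by
      simpa using LinearMap.congr_fun₂ hc (e.symm x) (e.symm y))⟩

end CfsgLib.MonRep
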