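import Mathlib
import Cfsg.Agent.Lib.MonRep.UB

/-!
The standard form on `VV`; invariant subspaces and invariant bilinear forms.
-/

set_option autoImplicit false

namespace CfsgLib.MonRep

open Cfsg CfsgLib.Leech CfsgLib.MType CfsgLib.Mon Matrix Finset Module

/-- `tr (Aᵀ B)` -/
def mdot {m n : Type} [Fintype m] [Fintype n] : Matrix m n ℚ →ₗ[ℚ] Matrix m n ℚ →ₗ[ℚ] ℚ :=
  LinearMap.mk₂ ℚ (fun A B => trace (Aᵀ * B)) (fun _ _ _ => by simp [Matrix.add_mul])
    (fun _ _ _ => by simp) (fun _ _ _ => by simp [Matrix.mul_add]) fun _ _ _ => by simp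

section
variable {m n : Type} [Fintype m] [Fintype n]

theorem mdot_apply (A B : Matrix m n ℚ) : mdot A B = trace (Aᵀ * B) := rfl

theorem mdot_comm (A B : Matrix m n ℚ) : mdot A B = mdot B A := by
  rw [mdot_apply, mdot_apply, ← trace_transpose, transpose_mul, transpose_transpose]

theorem mdot_eq (A B : Matrix m n ℚ) : mdot A B = ∑ j, ∑ i, A i j * B i j := rfl

theorem mdot_nonneg (A : Matrix m n ℚ) : 0 ≤ mdot A A :=
  sum_nonneg fun _ _ => sum_nonneg fun _ _ => mul_self_nonneg _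

theorem mdot_eq_zero {A : Matrix m n ℚ} (h : mdot A A = 0) : A = 0 := by
  ext i j
  exact mul_self_eq_zero.1 ((sum_eq_zero_iff_of_nonneg fun _ _ => mul_self_nonneg _).1
    ((sum_eq_zero_iff_of_nonneg fun _ _ => sum_nonneg fun _ _ => mul_self_nonneg _).1 h j (mem_univ _))
    i (mem_univ _))

theorem mdot_vec (a : m → ℚ) (b : n → ℚ) (B : Matrix m n ℚ) : mdot (vecMulVec a b) B = a ⬝ᵥ B *ᵥ b := by
  rw [mdot_apply, transpose_vecMulVec, vecMulVec_mul, trace_vecMulVec, dotProduct_comm,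
    dotProduct_mulVec]

theorem mdot_conj [DecidableEq m] [DecidableEq n] {L : Matrix m m ℚ} {R : Matrix n n ℚ} (hL : Lᵀ * L = 1)
    (hR : Rᵀ * R = 1) (A B : Matrix m n ℚ) : mdot (L * A * Rᵀ) (L * B * Rᵀ) = mdot A B := by
  rw [mdot_apply, mdot_apply, transpose_mul, transpose_mul, transpose_transpose, ← Matrix.mul_assoc,
    trace_mul_comm]
  simp only [← Matrix.mul_assoc, hR, Matrix.one_mul]
  rw [Matrix.mul_assoc Aᵀ, hL, Matrix.mul_one]

theorem dot_nonneg (a : n → ℚ) : 0 ≤ a ⬝ᵥ a := sum_nonneg fun _ _ => mul_self_nonneg _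

end

variable {κ : Coord}

theorem repX_dot (c : C κ) (f g : V24 → ℚ) : repX κ c f ⬝ᵥ repX κ c g = f ⬝ᵥ g :=
  (Fintype.sum_bijective (cact c) (Finite.injective_iff_bijective.1 (cact_injective c)) _ _ fun v => by
    rw [repX_apply_cact, repX_apply_cact, mul_mul_mul_comm, sg_mul_self, one_mul]).symm

/-- the standard form -/
def bt : VV →ₗ[ℚ] VV →ₗ[ℚ] ℚ :=
  LinearMap.mk₂ ℚ (fun x y => mdot x.1 y.1 + x.2.1 ⬝ᵥ y.2.1 + mdot x.2.2 y.2.2)
    (fun _ _ _ => by simp; ring) (fun _ _ _ => by simp; ring) (fun _ _ _ => by simp; ring)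
    fun _ _ _ => by simp; ring

theorem bt_apply (x y : VV) : bt x y = mdot x.1 y.1 + x.2.1 ⬝ᵥ y.2.1 + mdot x.2.2 y.2.2 := rfl

theorem bt_comm (x y : VV) : bt x y = bt y x := by
  rw [bt_apply, bt_apply, mdot_comm, dotProduct_comm, mdot_comm x.2.2]

theorem bt_nonneg (x : VV) : 0 ≤ bt x x :=
  add_nonneg (add_nonneg (mdot_nonneg _) (dot_nonneg _)) (mdot_nonneg _)

theorem bt_eq_zero {x : VV} (h : bt x x = 0) : x = 0 := by
  have h1 := mdot_nonneg x.1
  have h2 := dot_nonneg x.2.1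
  have h3 := mdot_nonneg x.2.2
  rw [bt_apply] at h
  exact Prod.ext (mdot_eq_zero (by linarith))
    (Prod.ext (dotProduct_self_eq_zero.1 (by linarith)) (mdot_eq_zero (by linarith)))

theorem bt_rho (c : C κ) (x y : VV) : bt (rho κ c x) (rho κ c y) = bt x y := by
  obtain ⟨a, rfl⟩ := mk_surjective c
  simp only [bt_apply, rho_apply, repX_dot, repA_mk, repT_mk, mdot_conj (gm_orth _) (gm_orth _),
    mdot_conj (gm_orth _) a.orth]

theorem bt_An (a b : GolayPt → ℚ) (y : VV) : bt (An a b) y = a ⬝ᵥ y.1 *ᵥ b + b ⬝ᵥ y.1 *ᵥ a := by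
  simp [bt_apply, An, mdot_vec]

theorem bt_Xw (w : V24) (y : VV) : bt (Xw w) y = y.2.1 w := by simp [bt_apply, Xw]

theorem bt_Tn (a : GolayPt → ℚ) (s : W12 → ℚ) (y : VV) : bt (Tn a s) y = a ⬝ᵥ y.2.2 *ᵥ s := by
  simp [bt_apply, Tn, mdot_vec]

theorem bt_Xw_Xw (v w : V24) : bt (Xw v) (Xw w) = if v = w then 1 else 0 := by
  rw [bt_Xw]; exact Pi.single_apply _ _ _

theorem bt_An_An (a b c d : GolayPt → ℚ) :
    bt (An a b) (An c d) = 2 * ((a ⬝ᵥ c) * (b ⬝ᵥ d) + (a ⬝ᵥ d) * (b ⬝ᵥ c)) := by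
  rw [bt_An]
  simp only [An, add_mulVec, vecMulVec_mulVec, dotProduct_add, op_smul_eq_smul, dotProduct_smul,
    smul_eq_mul, dotProduct_comm d, dotProduct_comm c]
  ring

theorem bt_Tn_Tn (a b : GolayPt → ℚ) (s t : W12 → ℚ) : bt (Tn a s) (Tn b t) = (a ⬝ᵥ b) * (s ⬝ᵥ t) := by
  rw [bt_Tn]
  simp only [Tn, vecMulVec_mulVec, op_smul_eq_smul, dotProduct_smul, smul_eq_mul,
    dotProduct_comm t, mul_comm]

theorem eb_dot (k l : W12) : eb k ⬝ᵥ eb l = if k = l then 1 else 0 := by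
  simp [eb, Pi.single_apply, eq_comm]

theorem rho_q_An (e : ZMod 2) (v : V24) (a b : GolayPt → ℚ) : rho κ (q κ e v) (An a b) = An a b :=
  rho_qh_An e v a b

theorem rho_q_Xw (e : ZMod 2) (v w : V24) : rho κ (q κ e v) (Xw w) = sg (om v w) • Xw w :=
  rho_qh_Xw e v w

theorem rho_z (x : VV) : rho κ (z κ) x = (x.1, x.2.1, -x.2.2) := by
  rw [rho_apply, repT_z, z, repA_q]
  refine Prod.ext rfl (Prod.ext (funext fun w => ?_) rfl)
  simp only [repX_apply, q_inv, cact_q, cε_q, om_zero_left, sg_zero, one_mul]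

theorem rho_z_An (a b : GolayPt → ℚ) : rho κ (z κ) (An a b) = An a b := rho_q_An _ _ _ _

theorem rho_z_Xw (w : V24) : rho κ (z κ) (Xw w) = Xw w := by simp [rho_z, Xw]

theorem rho_z_Tn (a : GolayPt → ℚ) (s : W12 → ℚ) : rho κ (z κ) (Tn a s) = -Tn a s := by simp [rho_z, Tn]

theorem short_ne_zero {v : V24} (h : IsShort κ v) : v ≠ 0 := by
  obtain ⟨v, h, rfl⟩ := h
  exact φ_ne_zero (by omega) (by omega)

theorem exists_sgn {d : Finset GolayPt} (hd : IsCW d) : ∃ c : C κ, ∀ i j,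
    rho κ c (An (ep i) (ep j)) = sg (coc (symmDiff {i} {j}) d) • An (ep i) (ep j) := by
  obtain ⟨x, hx⟩ := Chat.exists_g (κ := κ) (sgnAut d hd)
  exact ⟨mk κ x, fun i j => by
    rw [rho_An, hx, gm_sgn_ep, gm_sgn_ep, An_smul_left, An_smul_right, smul_smul, coc_symmDiff,
      coc_singleton, coc_singleton, sg_add]⟩

theorem card_pair_le (i j : GolayPt) : (symmDiff ({i} : Finset GolayPt) {j}).card ≤ 2 := by
  have := Golay.card_symmDiff_add {i} {j}
  simp only [card_singleton] at this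
  omega

theorem exists_coc_ne {i j k l : GolayPt} (h : i ≠ j) (h1 : ¬(k = i ∧ l = j)) (h2 : ¬(k = j ∧ l = i)) :
    ∃ d, IsCW d ∧ coc (symmDiff {i} {j}) d ≠ coc (symmDiff {k} {l}) d := by
  by_contra! e
  have h3 := card_pair_le i j
  have h4 := card_pair_le k l
  have h5 := eq_of_coc e (by omega)
  have h6 := Finset.ext_iff.1 h5 i
  have h7 := Finset.ext_iff.1 h5 j
  simp only [mem_symmDiff, mem_singleton] at h6 h7
  grind

theorem exists_two : ∀ i j : GolayPt, ∃ k l, k ≠ l ∧ k ≠ i ∧ k ≠ j ∧ l ≠ i ∧ l ≠ j := by decide +kernel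

/-- the square of a lattice vector -/
def Sq (v : leechLattice) : VV := An (ratv v) (ratv v)

theorem rho_Sq (x : Chat κ) (v : leechLattice) : rho κ (mk κ x) (Sq v) = Sq (x.g • v) := by
  rw [Sq, rho_An, gm_mulVec, Sq]

theorem ratv_dpL (i j : GolayPt) : ratv (dpL i j) = (4 : ℚ) • (ep i + ep j) := by
  funext l
  simp only [ratv, dpL_apply, ep, Pi.smul_apply, Pi.add_apply, Pi.single_apply]
  split_ifs <;> norm_num

theorem An_sub_right (a b b' : GolayPt → ℚ) : An a (b - b') = An a b - An a b' := map_sub (AnL a) b b'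

theorem Sq_dpL (i j : GolayPt) : Sq (dpL i j) =
    (16 : ℚ) • (An (ep i) (ep i) + An (ep j) (ep j)) + (32 : ℚ) • An (ep i) (ep j) := by
  simp only [Sq, ratv_dpL, An_smul_left, An_smul_right, An_add_left, An_add_right, An_comm (ep j) (ep i)]
  module

theorem Sq_dlL (i j : GolayPt) : Sq (dlL i j) =
    (16 : ℚ) • (An (ep i) (ep i) + An (ep j) (ep j)) - (32 : ℚ) • An (ep i) (ep j) := by
  simp only [Sq, ratv_dlL, uv, An_smul_left, An_smul_right, An_sub_left, An_sub_right,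
    An_comm (ep j) (ep i)]
  module

theorem ratv_add (u v : leechLattice) : ratv (u + v) = ratv u + ratv v := by funext i; simp [ratv]

theorem ratv_sub (u v : leechLattice) : ratv (u - v) = ratv u - ratv v := by funext i; simp [ratv]

theorem Sq_add_sub (u v : leechLattice) : Sq (u + v) + Sq (u - v) = (2 : ℚ) • (Sq u + Sq v) := by
  simp only [Sq, ratv_add, ratv_sub, An_add_left, An_add_right, An_sub_left, An_sub_right]
  module

theorem dot_dp (i j : GolayPt) (v : GolayPt → ℤ) : dotInt (dpL i j).1 v = 4 * (v i + v j) := by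
  rw [show (dpL i j).1 = Pi.single i 4 + Pi.single j 4 from rfl, Leech.dotInt_add_left,
    dotInt_single_left, dotInt_single_left, mul_add]

/-- invariance under `C` -/
def CInv (κ : Coord) (p : Submodule ℚ VV) : Prop := ∀ c, ∀ x ∈ UU κ, x ∈ p → rho κ c x ∈ p

namespace CInv
variable {p : Submodule ℚ VV}

theorem X (h : CInv κ p) {v w : V24} (hv : IsShort κ v) (hw : IsShort κ w) (e : Xw v ∈ p) : Xw w ∈ p := by
  obtain ⟨c, rfl⟩ := exists_cact_short hv hw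
  have := h c _ (Xw_mem hv) e
  rwa [rho_Xw', p.smul_mem_iff (sg_ne_zero _)] at this

theorem D (h : CInv κ p) (hA : ∀ i j, i ≠ j → An (ep i) (ep j) ∈ p) (i j : GolayPt) :
    An (ep i) (ep i) - An (ep j) (ep j) ∈ p := by
  by_cases e : i = j
  · rw [e, sub_self]; exact p.zero_mem
  have key : ∀ k l, k ≠ l → k ≠ i → k ≠ j → l ≠ i → l ≠ j → Sq (dpL i k) - Sq (dpL j l) ∈ p := by
    intro k l a b c d f
    obtain ⟨g, h1, h2⟩ := exists_pair_min (sqNorm_dpL e) (sqNorm_dlL e) (sqNorm_dpL b.symm)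
      (sqNorm_dpL f.symm) (by simp [dot_dp, dlL_apply, dpL_apply, e, Ne.symm e, a, c, d.symm])
    obtain ⟨x, rfl⟩ := Chat.exists_g (κ := κ) g
    rw [← h1, ← h2, ← rho_Sq, ← rho_Sq, ← map_sub]
    refine h _ _ (sub_mem (An_mem _ _) (An_mem _ _)) ?_
    rw [Sq_dpL, Sq_dlL, add_sub_sub_cancel]
    exact add_mem (p.smul_mem _ (hA i j e)) (p.smul_mem _ (hA i j e))
  obtain ⟨k, l, a, b, c, d, f⟩ := exists_two i j
  have := p.smul_mem (1 / 32 : ℚ) (add_mem (key k l a b c d f) (key l k a.symm d f b c))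
  simp only [Sq_dpL] at this
  convert add_mem (add_mem (sub_mem (sub_mem this (hA i k b.symm)) (hA i l d.symm)) (hA j l f.symm))
    (hA j k c.symm) using 1
  module

theorem A (h : CInv κ p) (hD : ∀ i, An (ep i) (ep i) ∈ p) (i j : GolayPt) : An (ep i) (ep j) ∈ p := by
  by_cases e : i = j
  · exact e ▸ hD i
  have key : ∀ v : leechLattice, sqNorm v.1 = 64 → Sq v ∈ p := fun v hv => by
    obtain ⟨g, rfl⟩ := exists_smul_eq_of_sqNorm (e8 i) v (by rw [hv, sqNorm_e8]) (by rw [sqNorm_e8])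
    obtain ⟨x, rfl⟩ := Chat.exists_g (κ := κ) g
    rw [← rho_Sq]
    refine h _ _ (An_mem _ _) ?_
    rw [Sq, ratv_e8, An_smul_left, An_smul_right]
    exact p.smul_mem _ (p.smul_mem _ (hD i))
  have key' : ∀ v : leechLattice, sqNorm v.1 = 32 → v.1 i + v.1 j = 0 → Sq (dpL i j) + Sq v ∈ p :=
    fun v h1 h2 => by
      rw [← p.smul_mem_iff (two_ne_zero' ℚ), ← Sq_add_sub]
      exact add_mem (key _ (by rw [AddSubgroup.coe_add, sqNorm_add, dot_dp, h1, h2, sqNorm_dpL e]; rfl))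
        (key _ (by rw [AddSubgroup.coe_sub, sqNorm_sub, dot_dp, h1, h2, sqNorm_dpL e]; rfl))
  obtain ⟨k, l, a, b, c, d, f⟩ := exists_two i j
  have := p.smul_mem (1 / 64 : ℚ) (add_mem
    (key' _ (sqNorm_dpL a) (by simp [dpL_apply, b.symm, c.symm, d.symm, f.symm]))
    (key' _ (sqNorm_dlL a) (by simp [dlL_apply, b.symm, c.symm, d.symm, f.symm])))
  simp only [Sq_dpL, Sq_dlL] at this
  convert sub_mem this (p.smul_mem (1 / 2 : ℚ) (add_mem (add_mem (add_mem (hD i) (hD j)) (hD k)) (hD l)))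
    using 1
  module

end CInv

theorem An_mem_of_ep {p : Submodule ℚ VV} (h : ∀ i j, An (ep i) (ep j) ∈ p) (a b : GolayPt → ℚ) :
    An a b ∈ p := by
  have key : ∀ a, (∀ j, An a (ep j) ∈ p) → ∀ b, An a b ∈ p := fun a h b => by
    change AnL a b ∈ p
    rw [pi_eq_sum_univ' b, map_sum]
    exact sum_mem fun j _ => by rw [map_smul]; exact p.smul_mem _ (h j)
  exact key a (fun j => An_comm (ep j) a ▸ key _ (h j) a) b

theorem mem_of_trV {p : Submodule ℚ VV} (hA : ∀ i j, i ≠ j → An (ep i) (ep j) ∈ p)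
    (hD : ∀ i j, An (ep i) (ep i) - An (ep j) (ep j) ∈ p) (hX : ∀ w, IsShort κ w → Xw w ∈ p)
    (hT : ∀ i k, Tn (ep i) (eb k) ∈ p) {u : VV} (hu : u ∈ UU κ) (h0 : trV u = 0) : u ∈ p := by
  have := UU_le (p := p.comap (LinearMap.id - trV.smulRight ((1 / 2 : ℚ) • An (ep none) (ep none))))
    (fun i j => ?_) (fun w hw => ?_) (fun i k => ?_) hu
  · simpa [h0] using this
  · by_cases e : i = j
    · simpa [e, trV_An, ep_dot, smul_smul] using hD j none
    · simpa [e, trV_An, ep_dot] using hA i j e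
  · simpa [trV_Xw] using hX w hw
  · simpa [trV_Tn] using hT i k

theorem Tn_mem_of (h : Std κ) {p : Submodule ℚ VV} (hY : ∀ i w, OS κ i w → YY κ i w ∈ p ∧ ZZ κ i w ∈ p)
    (i : GolayPt) (k : W12) : Tn (ep i) (eb k) ∈ p := by
  obtain ⟨w, hw, rfl | e⟩ := h.exists_OS i k
  · exact (p.smul_mem_iff (sg_ne_zero _)).1 (h.ZZ_eq i w ▸ (hY i w hw).2)
  · have := (p.smul_mem_iff (sg_ne_zero _)).1 (h.YY_eq i w ▸ (hY i w hw).1)
    rwa [e, add_assoc, w_add_self, add_zero] at this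

theorem short_m {i j : GolayPt} (e : i ≠ j) : IsShort κ (lam κ i + lam κ j) := ⟨_, sqNorm_dlL e, φ_dlL i j⟩

theorem short_p {i j : GolayPt} (e : i ≠ j) : IsShort κ (lam κ i + lam κ j + w0 κ) :=
  ⟨_, sqNorm_dpL e, φ_dpL i j⟩

theorem Um_mem {i j : GolayPt} (e : i ≠ j) : Um κ i j ∈ UU κ := add_mem (Xw_mem (short_m e)) (Xw_mem (short_p e))

theorem Up_mem {i j : GolayPt} (e : i ≠ j) : Up κ i j ∈ UU κ := sub_mem (Xw_mem (short_m e)) (Xw_mem (short_p e))

theorem YY_mem (i : GolayPt) (w : V24) : YY κ i w ∈ UU κ := Tn_mem _ _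

theorem ZZ_mem (i : GolayPt) (w : V24) : ZZ κ i w ∈ UU κ := Tn_mem _ _

/-- an invariant subspace containing one `X_v` contains all vectors of trace zero -/
theorem CInv.V0_le (h : Std κ) {p : Submodule ℚ VV} (hp : CInv κ p)
    (ht : ∀ x ∈ UU κ, x ∈ p → tau κ x ∈ p) {v : V24} (hv : IsShort κ v) (e : Xw v ∈ p) {u : VV}
    (hu : u ∈ UU κ) (h0 : trV u = 0) : u ∈ p := by
  have hX : ∀ w, IsShort κ w → Xw w ∈ p := fun w hw => hp.X hv hw e
  have hA : ∀ i j, i ≠ j → An (ep i) (ep j) ∈ p := fun i j a =>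
    tau_Up (κ := κ) a ▸ ht _ (Up_mem a) (sub_mem (hX _ (short_m a)) (hX _ (short_p a)))
  refine mem_of_trV hA (hp.D hA) hX (Tn_mem_of h fun i w hw => ?_) hu h0
  have := tau_Xs hw ▸ ht _ (Xw_mem hw.isShort) (hX w hw.isShort)
  exact ⟨this, h.tau_YY hw ▸ ht _ (YY_mem i w) this⟩

/-! ### invariant bilinear forms -/

/-- invariance of a bilinear form under `C` -/
def BInv (κ : Coord) (B : VV →ₗ[ℚ] VV →ₗ[ℚ] ℚ) : Prop :=
  ∀ c, ∀ x ∈ UU κ, ∀ y ∈ UU κ, B (rho κ c x) (rho κ c y) = B x y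

theorem BInv.zero {B : VV →ₗ[ℚ] VV →ₗ[ℚ] ℚ} (h : BInv κ B) (c : C κ) {x y : VV} (hx : x ∈ UU κ)
    (hy : y ∈ UU κ) {s t : ZMod 2} (h1 : rho κ c x = sg s • x) (h2 : rho κ c y = sg t • y) (e : s ≠ t) :
    B x y = 0 := by
  have := h c x hx y hy
  rw [h1, h2, map_smul, map_smul, LinearMap.smul_apply, smul_smul, ← sg_add,
    (z2_cases (t + s)).resolve_left (by clear h1 h2 this; revert s t; decide)] at this
  simp only [sg_one, smul_eq_mul] at this
  linarith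

/-- the left radical on `UU` -/
def radU (κ : Coord) {W : Type} [AddCommGroup W] [Module ℚ W] (B : VV →ₗ[ℚ] VV →ₗ[ℚ] W) : Submodule ℚ VV :=
  LinearMap.ker (B.compl₂ (UU κ).subtype)

theorem mem_radU {W : Type} [AddCommGroup W] [Module ℚ W] {B : VV →ₗ[ℚ] VV →ₗ[ℚ] W} {x : VV} :
    x ∈ radU κ B ↔ ∀ y ∈ UU κ, B x y = 0 :=
  ⟨fun h y hy => LinearMap.congr_fun h ⟨y, hy⟩, fun h => LinearMap.ext fun y => h y.1 y.2⟩

theorem rho_rho_inv (c : C κ) (x : VV) : rho κ c (rho κ c⁻¹ x) = x := (rho κ).self_inv_apply c x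

theorem BInv.cinv {B : VV →ₗ[ℚ] VV →ₗ[ℚ] ℚ} (h : BInv κ B) : CInv κ (radU κ B) := fun c x hx e =>
  mem_radU.2 fun y hy => by
    rw [← rho_rho_inv c y, h c x hx _ (rho_mem _ hy), mem_radU.1 e _ (rho_mem _ hy)]

theorem BInv.X_mem {B : VV →ₗ[ℚ] VV →ₗ[ℚ] ℚ} (h : BInv κ B) {v : V24} (hv : IsShort κ v)
    (e : B (Xw v) (Xw v) = 0) : Xw v ∈ radU κ B := by
  refine mem_radU.2 fun y hy => UU_le (p := LinearMap.ker (B (Xw v))) (fun i j => ?_) (fun w hw => ?_)
    (fun i k => ?_) hy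
  · obtain ⟨n, hn⟩ := exists_om_one (short_ne_zero hv)
    exact h.zero (q κ 0 n) (Xw_mem hv) (An_mem _ _) (rho_q_Xw _ _ _) (t := 0) (by simp [rho_q_An])
      (by rw [hn]; decide)
  · by_cases a : v = w
    · exact a ▸ e
    obtain ⟨n, hn⟩ := exists_om_one (v := v + w) fun b => a (by
      rw [← add_left_inj w, b, ww_add_self])
    refine h.zero (q κ 0 n) (Xw_mem hv) (Xw_mem hw) (rho_q_Xw _ _ _) (rho_q_Xw _ _ _) fun b => ?_
    rw [om_add_right, b, z2_add_self] at hn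
    exact zero_ne_one hn
  · exact h.zero (z κ) (Xw_mem hv) (Tn_mem _ _) (s := 0) (t := 1) (by simp [rho_z_Xw])
      (by simp [rho_z_Tn]) (by decide)

theorem bt_YY (h : Std κ) {i j : GolayPt} {v w : V24} (hv : OS κ i v) (hw : OS κ j w) :
    bt (YY κ i v) (YY κ j w) = bt (Xw v) (Xw w) ∧ bt (ZZ κ i v) (ZZ κ j w) = bt (Xw v) (Xw w) ∧
      bt (YY κ i v) (ZZ κ j w) = 0 := by
  have e : v.1 + a0 κ ≠ w.1 := fun e => by
    have := h.OS_odd hw
    rw [← e, dotProduct_add, h.OS_odd hv, h.w0_dot_a0] at this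
    exact absurd this (by decide)
  simp only [h.YY_eq, h.ZZ_eq, map_smul, LinearMap.smul_apply, bt_Tn_Tn, ep_dot, eb_dot, bt_Xw_Xw,
    add_left_inj, e, if_false, mul_zero, and_true, smul_eq_mul]
  by_cases a : v = w
  · subst a
    obtain rfl := OS_idx hv hw
    simp
  · by_cases b : i = j
    · subst b
      simp [a, mt (h.OS_unique hv hw) a]
    · simp [a, b]

theorem form_unique (h : Std κ) {B : VV →ₗ[ℚ] VV →ₗ[ℚ] ℚ} (hC : BInv κ B)
    (ht : ∀ x ∈ UU κ, ∀ y ∈ UU κ, B (tau κ x) (tau κ y) = B x y) {v : V24} (hv : IsShort κ v)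
    {x y : VV} (hx : x ∈ UU κ) (h0 : trV x = 0) (hy : y ∈ UU κ) : B x y = B (Xw v) (Xw v) * bt x y := by
  set l := B (Xw v) (Xw v) with hl
  have hD : BInv κ (B - l • bt) := fun c x hx y hy => by simp [hC c x hx y hy, bt_rho]
  have hm : ∀ x, x ∈ radU κ (B - l • bt) ↔ ∀ y ∈ UU κ, B x y = l * bt x y := fun x => by
    simp [mem_radU, sub_eq_zero]
  have hX : ∀ w, IsShort κ w → Xw w ∈ radU κ (B - l • bt) := fun w hw =>
    hD.cinv.X hv hw (hD.X_mem hv (by simp [hl, bt_Xw_Xw]))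
  have hA : ∀ i j, i ≠ j → An (ep i) (ep j) ∈ radU κ (B - l • bt) := fun i j e => by
    refine mem_radU.2 fun y hy => UU_le (p := LinearMap.ker ((B - l • bt) _)) (fun a b => ?_)
      (fun w hw => ?_) (fun i k => ?_) hy
    · have h1 : (B - l • bt) (An (ep i) (ep j)) (An (ep i) (ep j)) = 0 := by
        have h2 := ht _ (An_mem (ep i) (ep j)) _ (An_mem (ep i) (ep j))
        have h3 := (hm _).1 (add_mem (hX _ (short_m e)) (hX _ (short_p e))) _ (Um_mem e)
        rw [tau_A e, show B (Um κ i j) (Um κ i j) = _ from h3] at h2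
        simp [← h2, Um, bt_Xw_Xw, bt_An_An, ep_dot, e, Ne.symm e, w0_ne_zero]
        ring
      by_cases c : a = i ∧ b = j
      · rw [c.1, c.2]; exact h1
      by_cases d : a = j ∧ b = i
      · rw [d.1, d.2, An_comm (ep j)]; exact h1
      obtain ⟨f, hf, g⟩ := exists_coc_ne e c d
      obtain ⟨s, hs⟩ := exists_sgn (κ := κ) hf
      exact hD.zero s (An_mem _ _) (An_mem _ _) (hs _ _) (hs _ _) g
    · obtain ⟨n, hn⟩ := exists_om_one (short_ne_zero hw)
      exact hD.zero (q κ 0 n) (An_mem _ _) (Xw_mem hw) (s := 0) (by simp [rho_q_An]) (rho_q_Xw _ _ _)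
        (by rw [hn]; decide)
    · exact hD.zero (z κ) (An_mem _ _) (Tn_mem _ _) (s := 0) (t := 1) (by simp [rho_z_An])
        (by simp [rho_z_Tn]) (by decide)
  have hT : ∀ a s, (∀ j w, OS κ j w → B (Tn a s) (YY κ j w) = l * bt (Tn a s) (YY κ j w) ∧
      B (Tn a s) (ZZ κ j w) = l * bt (Tn a s) (ZZ κ j w)) → Tn a s ∈ radU κ (B - l • bt) := by
    intro a s e
    refine mem_radU.2 fun y hy => UU_le (p := LinearMap.ker ((B - l • bt) _)) (fun a b => ?_)
      (fun w hw => ?_) (Tn_mem_of h fun j w hw => by simpa [sub_eq_zero] using e j w hw) hy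
    · exact hD.zero (z κ) (Tn_mem _ _) (An_mem _ _) (s := 1) (t := 0) (by simp [rho_z_Tn])
        (by simp [rho_z_An]) (by decide)
    · exact hD.zero (z κ) (Tn_mem _ _) (Xw_mem hw) (s := 1) (t := 0) (by simp [rho_z_Tn])
        (by simp [rho_z_Xw]) (by decide)
  refine (hm x).1 (mem_of_trV hA (hD.cinv.D hA) hX (Tn_mem_of h fun i u hu => ?_) hx h0) y hy
  have k1 := Xw_mem hu.isShort
  have k2 := (hm _).1 (hX u hu.isShort)
  have k3 : ∀ j w, bt (Xw u) (YY κ j w) = 0 := fun j w => bt_Xw _ _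
  refine ⟨hT _ _ fun j w hw => ?_, hT _ _ fun j w hw => ?_⟩ <;> have k4 := Xw_mem hw.isShort
  · have a := ht _ k1 _ k4
    have b := ht _ k1 _ (YY_mem j w)
    rw [tau_Xs hu, tau_Xs hw, k2 _ k4, ← (bt_YY h hu hw).1] at a
    rw [tau_Xs hu, h.tau_YY hw, k2 _ (YY_mem j w), k3, ← (bt_YY h hu hw).2.2] at b
    exact ⟨a, b⟩
  · have a := ht _ (ZZ_mem i u) _ (ZZ_mem j w)
    have b := (ht _ (h.tau_mem (ZZ_mem i u)) _ (h.tau_mem (YY_mem j w))).trans
      (ht _ (ZZ_mem i u) _ (YY_mem j w))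
    rw [h.tau_ZZ hu, h.tau_ZZ hw, k2 _ k4, ← (bt_YY h hu hw).2.1] at a
    rw [h.tau_ZZ hu, h.tau_YY hw, h.tau_ZZ hw, tau_Xs hu, show B (YY κ i u) (Xw w) = 0 from
      hC.zero (z κ) (Tn_mem _ _) k4 (s := 1) (t := 0) (by simp [YY, rho_z_Tn]) (by simp [rho_z_Xw])
        (by decide)] at b
    exact ⟨b.symm.trans (by rw [← ZZ, bt_comm, (bt_YY h hw hu).2.2, mul_zero]), a.symm⟩

end CfsgLib.MonRep
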