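import Mathlib
import Cfsg.Agent.Lib.MonRep.Cnt
import Cfsg.Agent.Lib.Mon.MM
import Cfsg.Agent.Lib.CharDeg.Constituent

/-!
Weights of `Q`; a nontrivial complex representation of the Monster has degree at least 196883.
-/

set_option autoImplicit false

namespace CfsgLib.MonRep

open Module Cfsg CfsgLib.Mon CfsgLib.Leech CfsgLib.MType Finset Matrix

variable {F V : Type*} [Field F] [AddCommGroup V] [Module F V] {κ : Coord}

theorem rep_mul {G : Type*} [Group G] (ρ : Representation F G V) (a b : G) (v : V) : ρ (a * b) v = ρ a (ρ b v) := by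
  rw [map_mul]; rfl

theorem rep_inj {G : Type*} [Group G] (ρ : Representation F G V) (g : G) : Function.Injective (ρ g) :=
  Function.LeftInverse.injective (ρ.inv_self_apply g)

section
variable (σ : Representation F (C κ) V)

/-- the fixed vectors of `z` -/
noncomputable def Vp : Submodule F V := eg (σ (z κ)) 0

/-- the weight space of a class -/
noncomputable def wt (v : V24) : Submodule F V := Vp σ ⊓ ex (fun u => σ (q κ 0 u)) fun u => om u v

variable {σ}

theorem mem_Vp {x : V} : x ∈ Vp σ ↔ σ (z κ) x = x := by simp [Vp, mem_eg]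

theorem apply_mem_Vp (c : C κ) {x : V} (h : x ∈ Vp σ) : σ c x ∈ Vp σ := by
  rw [mem_Vp] at h ⊢; rw [← rep_mul, ← z_comm, rep_mul, h]

theorem q_apply {x : V} (h : x ∈ Vp σ) (e : ZMod 2) (u : V24) : σ (q κ e u) x = σ (q κ 0 u) x := by
  rcases q_eq_or (κ := κ) (e := 0) (e' := e) u with h1 | h1 <;> rw [h1]
  rw [rep_mul, mem_Vp.1 h]

theorem q_q {x : V} (h : x ∈ Vp σ) (e e' : ZMod 2) (u u' : V24) :
    σ (q κ e u) (σ (q κ e' u') x) = σ (q κ 0 (u + u')) x := by rw [← rep_mul, q_mul, q_apply h]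

theorem mem_wt {v : V24} {x : V} : x ∈ wt σ v ↔ ∀ e u, σ (q κ e u) x = sF F (om u v) • x :=
  ⟨fun h e u => (q_apply h.1 e u).trans (h.2 u), fun h => ⟨mem_Vp.2 (by simpa [z] using h 1 0), h 0⟩⟩

theorem apply_mem_wt (c : C κ) {v : V24} {x : V} (h : x ∈ wt σ v) : σ c x ∈ wt σ (cact c v) :=
  mem_wt.2 fun e u => by
    rw [← rep_mul, show q κ e u * c = c * (c⁻¹ * q κ e u * c⁻¹⁻¹) by group, rep_mul, conj_q, mem_wt.1 h, map_smul,
      ← om_cact c, cact_cact_inv]

theorem ci_Vp {W : Submodule F V} (h : W ≤ Vp σ) (hW : ∀ u, ∀ x ∈ W, σ (q κ 0 u) x ∈ W) :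
    CI (fun u => σ (q κ 0 u)) W :=
  ⟨hW, fun u x hx => by simp [q_q (h hx), ww_add_self], fun u u' x hx => by simp only [q_q (h hx), add_comm]⟩

variable [NeZero (2 : F)]

theorem exists_wt {ψ : V24 → ZMod 2} {x : V} (h : x ∈ Vp σ) (h1 : x ∈ ex (fun u => σ (q κ 0 u)) ψ) (h0 : x ≠ 0) :
    ∃ v, ψ = fun u => om u v := by
  obtain ⟨v, hv⟩ := exists_om_eq (AddMonoidHom.mk' ψ fun a b => eq_of_sF_smul (F := F) h0 (by
    rw [← h1, ← q_q h 0 0, h1 b, map_smul, h1 a, smul_smul, sF_add, mul_comm]))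
  exact ⟨v, funext hv⟩

theorem le_of_wt {W P : Submodule F V} (h : W ≤ Vp σ) (hW : ∀ u, ∀ x ∈ W, σ (q κ 0 u) x ∈ W)
    (hP : ∀ v, ∀ x ∈ W, x ∈ wt σ v → x ≠ 0 → x ∈ P) : W ≤ P :=
  (ci_Vp h hW).le fun _ x h1 h2 => by
    by_cases h0 : x = 0
    · exact h0 ▸ zero_mem _
    · obtain ⟨v, rfl⟩ := exists_wt (h h1) h2 h0
      exact hP v x h1 ⟨h h1, h2⟩ h0

theorem om_inj : Function.Injective fun (v : V24) (u : V24) => om u v := fun v w e => by
  rw [← sub_eq_zero, sub_eq_add_neg, neg_eq_of_add_eq_zero_right (ww_add_self w)]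
  exact eq_zero_of_om fun u => by rw [om_add_right, show om u v = om u w from congrFun e u, z2_add_self]

variable [FiniteDimensional F V]

omit [NeZero (2 : F)] in
theorem finrank_wt_cact (c : C κ) (v : V24) : finrank F (wt σ (cact c v)) = finrank F (wt σ v) :=
  le_antisymm (finrank_le_of_map (rep_inj σ c⁻¹) fun _ h => by simpa using apply_mem_wt c⁻¹ h)
    (finrank_le_of_map (rep_inj σ c) fun _ => apply_mem_wt c)

theorem wt_eq_bot (hV : finrank F V < 8000000) {v : V24} (h0 : v ≠ 0) (hs : ¬ IsShort κ v) : wt σ v = ⊥ := by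
  by_contra h
  obtain ⟨x, h1, h2⟩ := Submodule.exists_mem_ne_zero_of_ne_bot h
  have := card_le_finrank (fun u => σ (q κ 0 u)) ⊤ (κ := Set.range fun c : C κ => cact c v)
    (om_inj.comp Subtype.val_injective) (by
      rintro ⟨_, c, rfl⟩
      exact ⟨_, trivial, (apply_mem_wt c h1).2, fun e => h2 (rep_inj σ c (e.trans (map_zero _).symm))⟩)
  have h3 := ncard_orbit_ge h0 hs
  rw [finrank_top] at this
  exact absurd (h3.trans this) (by omega)

theorem finrank_short {p : V24 → Prop} {W : Submodule F V} (h : W ≤ Vp σ) (hW : ∀ u, ∀ x ∈ W, σ (q κ 0 u) x ∈ W)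
    (h1 : ∀ v, p v → IsShort κ v ∧ wt σ v ≤ W) (h2 : ∀ v, ∀ x ∈ W, x ∈ wt σ v → x ≠ 0 → p v) :
    finrank F W = Nat.card {v // p v} * finrank F (wt σ (lam κ none)) := by
  classical
  rw [(ci_Vp h hW).finrank_eq_sum (κ := {v // p v}) (om_inj.comp Subtype.val_injective) fun ψ x h3 h4 h5 => by
    obtain ⟨v, rfl⟩ := exists_wt (h h3) h4 h5
    exact ⟨⟨v, h2 v x h3 ⟨h h3, h4⟩ h5⟩, rfl⟩, Nat.card_eq_fintype_card, ← card_univ, ← smul_eq_mul, ← sum_const]
  refine sum_congr rfl fun v _ => ?_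
  obtain ⟨c, hc⟩ := exists_cact_short ⟨_, sqNorm_lamL none, rfl⟩ (h1 v v.2).1
  rw [← finrank_wt_cact c, lam, hc]
  exact congrArg (fun A : Submodule F V => finrank F A)
    (le_antisymm (inf_le_inf_right _ h) (le_inf (h1 v v.2).2 inf_le_right))

theorem sum_eq_add {A : Type*} [Fintype A] {m : A → ℕ} {p : A → Prop} {a : A} {c : ℕ} (ha : ¬ p a)
    (h1 : ∀ v, p v → m v = c) (h2 : ∀ v, v ≠ a → ¬ p v → m v = 0) : ∑ v, m v = m a + Nat.card {v // p v} * c := by
  classical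
  rw [← add_sum_erase _ _ (mem_univ a), Nat.card_eq_fintype_card, Fintype.card_subtype,
    ← smul_eq_mul, ← sum_const, sum_filter, ← add_sum_erase _ _ (mem_univ a), if_neg ha, zero_add]
  refine congrArg _ (sum_congr rfl fun v hv => ?_)
  split_ifs with h
  exacts [h1 v h, h2 v (mem_erase.1 hv).1 h]

theorem finrank_Vp (hV : finrank F V < 8000000) :
    finrank F (Vp σ) = finrank F (wt σ 0) + 98280 * finrank F (wt σ (lam κ none)) := by
  rw [(ci_Vp le_rfl fun u _ => apply_mem_Vp _).finrank_eq_sum om_inj fun ψ x h3 h4 h5 => exists_wt h3 h4 h5,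
    ← card_short (κ := κ)]
  refine sum_eq_add (m := fun v => finrank F (wt σ v)) (fun ⟨v, h1, h2⟩ => φ_ne_zero (by omega) (by omega) h2)
    (fun v h => ?_) fun v hv h => Submodule.finrank_eq_zero.2 (wt_eq_bot hV hv h)
  obtain ⟨c, rfl⟩ := exists_cact_short ⟨_, sqNorm_lamL none, rfl⟩ h
  exact finrank_wt_cact c _

theorem not_short_w0 : ¬ IsShort κ (w0 κ) := fun ⟨v, h1, h2⟩ => by
  have := (κ.φ_eq_iff.1 h2).sqNorm_eq (by omega) (sqNorm_e8 _).le
  rw [sqNorm_e8] at this; omega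

theorem finrank_odd (h : Std κ) (hV : finrank F V < 8000000) :
    finrank F ↥(Vp σ ⊓ eg (σ (q κ 0 (w0 κ))) 1) = 49152 * finrank F (wt σ (lam κ none)) := by
  rw [← card_odd_short h]
  refine finrank_short inf_le_left (fun u x hx => ⟨apply_mem_Vp _ hx.1, mem_eg.2 ?_⟩) (fun v hv => ⟨hv.1, fun x hx =>
    ⟨hx.1, mem_eg.2 (by rw [mem_wt.1 hx, om_comm, hv.2])⟩⟩) fun v x h1 h2 h3 => ?_
  · rw [q_q hx.1, add_comm, ← q_q hx.1 0 0, mem_eg.1 hx.2, map_smul]
  · have h4 : om v (w0 κ) = 1 := eq_of_sF_smul h3 (by rw [om_comm, ← mem_wt.1 h2 0, mem_eg.1 h1.2])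
    refine ⟨by_contra fun hs => h3 ?_, h4⟩
    rwa [wt_eq_bot hV (by rintro rfl; simp at h4) hs] at h2

end

variable {G : Type*} [Group G] {π : C k0 →* G} {τ : G} [NeZero (2 : F)] [FiniteDimensional F V]

/-- three commuting involutions with product one, permuted by `τ` -/
theorem finrank_tri (ρ : Representation F G V) {a b c : G} (hab : a * b = c) (hba : b * a = c) (ha : a * a = 1)
    (hb : b * b = 1) (h1 : τ * a * τ⁻¹ = b) (h3 : τ * c * τ⁻¹ = a) :
    finrank F V = finrank F (eg (ρ a) 0) + 2 * finrank F ↥(eg (ρ a) 0 ⊓ eg (ρ b) 1) := by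
  have key : ∀ i j : ZMod 2, finrank F ↥(eg (ρ a) i ⊓ eg (ρ b) j) ≤ finrank F ↥(eg (ρ a) (i + j) ⊓ eg (ρ b) i) :=
    fun i j => finrank_le_of_map (rep_inj ρ τ) fun x hx => ⟨mem_eg.2 (by
      rw [← rep_mul, ← h3, inv_mul_cancel_right, rep_mul, ← hab, rep_mul, mem_eg.1 hx.2, map_smul, mem_eg.1 hx.1,
        smul_smul, map_smul, sF_add, mul_comm]), mem_eg.2 (by
      rw [← rep_mul, ← h1, inv_mul_cancel_right, rep_mul, mem_eg.1 hx.1, map_smul])⟩
  have e1 := finrank_eq_add (g := ρ a) (W := ⊤) (fun _ _ => trivial) fun v _ => by rw [← rep_mul, ha]; simp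
  have e2 := finrank_eq_add (g := ρ b) (W := eg (ρ a) 1) (fun v hv => mem_eg.2 (by
    rw [← rep_mul, hab, ← hba, rep_mul, mem_eg.1 hv, map_smul])) fun v _ => by rw [← rep_mul, hb]; simp
  have k1 := key 0 1
  have k2 := key 1 0
  have k3 := key 1 1
  rw [top_inf_eq, top_inf_eq, finrank_top] at e1
  rw [zero_add] at k1
  rw [add_zero] at k2
  rw [z2_add_self] at k3
  omega

theorem tau_fix (h : MAm π τ) (ρ : Representation F G V) (hV : finrank F V < 8000000) {x : V}
    (hx : ∀ n ∈ Nxyz k0, ρ (π n) x = x) : ρ τ x = x := by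
  have h1 : ∀ x, (∀ n ∈ Nxyz k0, ρ (π n) x = x) → ρ (π sT) x = x := fun x hx => by
    let W : Submodule F V := Vp (ρ.comp π) ⊓ ex (fun u : {u // om u (w0 k0) = 0} => ρ (π (q k0 0 u))) 0
    have := le_of_wt (σ := ρ.comp π) (W := W) (P := wt (ρ.comp π) 0) inf_le_left (fun u y hy =>
      ⟨apply_mem_Vp _ hy.1, fun u' => (q_q hy.1 0 0 u' u).trans (by
        rw [add_comm, ← q_q hy.1 0 0]; exact (congrArg _ (hy.2 u')).trans (map_smul _ _ _))⟩) fun v y h2 h3 h4 => by
      by_cases h0 : v = 0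
      · exact h0 ▸ h3
      by_cases h5 : v + w0 k0 = 0
      · rw [← neg_eq_of_add_eq_zero_left h5, neg_eq_of_add_eq_zero_left (ww_add_self _),
          wt_eq_bot hV w0_ne_zero not_short_w0] at h3
        exact absurd h3 h4
      · obtain ⟨u, h6, h7⟩ := exists_om_two h0 w0_ne_zero h5 1 0
        exact absurd (eq_of_sF_smul h4 ((h6 ▸ mem_wt.1 h3 0 u).symm.trans (h2.2 ⟨u, h7⟩))) one_ne_zero
    have h2 := mem_wt.1 (this (x := x) ⟨mem_Vp.2 (hx _ (q_mem_Nxyz.2 (om_zero_left _))), fun u => by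
      simpa using hx _ (q_mem_Nxyz.2 u.2)⟩) 0 (eX 11)
    simpa [sT_eq] using h2
  have h2 : ∀ x, (∀ n ∈ Nxyz k0, ρ (π n) x = x) → ∀ n ∈ Nxyz k0, ρ (π n) (ρ τ x) = ρ τ x := fun x hx n hn => by
    obtain ⟨n', h3, h4⟩ := h.exists_conj' hn
    rw [← rep_mul, show π n * τ = τ * (τ⁻¹ * π n * τ) by group, h4, rep_mul, hx n' h3]
  have h3 : ∀ x, (∀ n ∈ Nxyz k0, ρ (π n) x = x) → ρ τ (ρ τ x) = x := fun x hx => by
    have := congrArg (fun g => ρ g x) h.inv
    simpa only [rep_mul, h1 _ hx, h1 _ (h2 x hx)] using this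
  have := congrArg (fun g => ρ g x) h.cube
  simpa only [pow_three, rep_mul, h3 _ hx, map_one, End.one_apply] using this

omit [NeZero (2 : F)] in
theorem exists_Co0 {V : Type*} [AddCommGroup V] [Module F V] (σ : Representation F (C κ) V)
    (h : ∀ e u, σ (q κ e u) = 1) : ∃ ρ : Representation F Co0 V, ∀ x : Chat κ, ρ x.g = σ (mk κ x) :=
  ⟨(Units.coeHom _).comp ((Chat.toCo0 κ).liftOfSurjective Chat.toCo0_surjective ⟨σ.asGroupHom.comp (mk κ), fun x hx => by
    obtain ⟨e, v, rfl⟩ := Chat.eq_qh hx; exact Units.ext (h e v)⟩),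
    fun x => congrArg Units.val ((Chat.toCo0 κ).liftOfRightInverse_comp_apply _ _ _ x)⟩

theorem not_dvd : ∀ d < 299, (d = 0 ∨ 276 ≤ d ∧ d ∣ 8315553613086720000) →
    ¬ 196584 + d ∣ 808017424794512875886459904961710757005754368000000000 := by decide +kernel

theorem le_finrank_irr {V : Type*} [AddCommGroup V] [Module ℂ V] [FiniteDimensional ℂ V] [Finite G] (h : MAm π τ)
    (hg : Subgroup.closure (Set.range π ∪ {τ}) = ⊤)
    (hc : Nat.card G = 808017424794512875886459904961710757005754368000000000)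
    (ρ : Representation ℂ G V) [ρ.IsIrreducible] (hz : ρ (π (z k0)) ≠ 1) : 196883 ≤ finrank ℂ V := by
  by_contra! hV
  let σ : Representation ℂ (C k0) V := ρ.comp π
  have hV' : finrank ℂ V < 8000000 := by omega
  have e1 : finrank ℂ V = finrank ℂ (Vp σ) + 2 * finrank ℂ ↥(Vp σ ⊓ eg (σ (q k0 0 (w0 k0))) 1) :=
    finrank_tri ρ (c := π (q k0 1 (w0 k0))) (by rw [← map_mul, z_mul_q, zero_add])
      (by rw [← map_mul, q_mul_z, zero_add]) (by rw [← map_mul, z_mul_self, map_one])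
      (by rw [← map_mul, q_mul_self_eq_one.2 qf_w0, map_one]) h.conj_z h.conj_z'
  have e2 := finrank_odd (σ := σ) std_k0 hV'
  have e3 := finrank_Vp (σ := σ) hV'
  have e4 : finrank ℂ (Vp σ) ≠ finrank ℂ V := fun e => hz (LinearMap.ext fun x =>
    mem_Vp.1 ((Submodule.eq_top_of_finrank_eq e).ge trivial))
  have e5 : finrank ℂ V = 196584 + finrank ℂ (wt σ 0) := by omega
  have hW : ∀ c, ∀ x ∈ wt σ 0, σ c x ∈ wt σ 0 := fun c x hx => by simpa using apply_mem_wt c hx
  obtain ⟨ρ0, h0⟩ := exists_Co0 (σ.subrepresentation (wt σ 0) hW) fun e u => LinearMap.ext fun x =>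
    Subtype.ext (by simpa using mem_wt.1 x.2 e u)
  have hn : ρ0 negAut = 1 := by rw [← mh_g, h0, mk_eq_one.2 (Or.inr rfl), map_one]
  have hA : ∀ A : Subrepresentation ρ0, A.toRepresentation.IsIrreducible → 276 ≤ finrank ℂ A.toSubmodule := by
    intro A hA
    by_contra! h1
    have h2 : ∀ g, A.toRepresentation g = 1 := fun g => by_contra fun e => absurd (le_finrank_Co1 _
      (LinearMap.ext fun x => Subtype.ext (LinearMap.congr_fun hn x.1)) e) (by omega)
    have := CharDeg.nontrivial_of_isIrreducible A.toRepresentation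
    obtain ⟨x, hx⟩ := exists_ne (0 : A.toSubmodule)
    have h3 : ∀ c, ρ (π c) x.1.1 = x.1.1 := fun c => by
      obtain ⟨y, rfl⟩ := mk_surjective c
      exact (congrArg Subtype.val (LinearMap.congr_fun (h0 y) x.1)).symm.trans
        (congrArg (fun a : A.toSubmodule => a.1.1) (LinearMap.congr_fun (h2 y.g) x))
    have h4 : ∀ g, ρ g x.1.1 = x.1.1 := fun g => by
      have : g ∈ Subgroup.closure (Set.range π ∪ {τ}) := hg ▸ trivial
      induction this using Subgroup.closure_induction with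
      | mem g hg =>
        rcases hg with ⟨c, rfl⟩ | rfl
        exacts [h3 c, tau_fix h ρ hV' fun n _ => h3 n]
      | one => simp
      | mul a b _ _ ha hb => rw [rep_mul, hb, ha]
      | inv a _ ha => conv_lhs => rw [← ha, ρ.inv_self_apply]
    rcases CharDeg.eq_bot_or_eq_top_of_invariant ρ ρ.invariants (fun g v hv => by rwa [hv g]) with e | e
    · exact hx (Subtype.ext (Subtype.ext (e.le h4)))
    · exact hz (LinearMap.ext fun v => e.ge trivial _)
  refine not_dvd _ (by omega) ?_ (e5 ▸ hc ▸ CharDeg.finrank_dvd_card ρ)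
  by_cases h1 : finrank ℂ (wt σ 0) = 0
  · exact Or.inl h1
  have := Module.nontrivial_of_finrank_pos (Nat.pos_of_ne_zero h1)
  have : NeZero (Nat.card Co0 : ℂ) := ⟨Nat.cast_ne_zero.mpr Nat.card_pos.ne'⟩
  have h2 : ρ0.IsIrreducible := CharDeg.isIrreducible_of_invariant ρ0 fun W hW => by
    by_contra! h3
    obtain ⟨B, hB⟩ := exists_isCompl (⟨W, fun g v hv => hW g v hv⟩ : Subrepresentation ρ0)
    have h4 : IsCompl W B.toSubmodule := ⟨disjoint_iff.2 (congrArg Subrepresentation.toSubmodule hB.inf_eq_bot),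
      codisjoint_iff.2 (congrArg Subrepresentation.toSubmodule hB.sup_eq_top)⟩
    obtain ⟨A1, h5, h6⟩ := CharDeg.exists_irreducible_le ρ0 W hW h3.1
    obtain ⟨A2, h7, h8⟩ := CharDeg.exists_irreducible_le ρ0 B.toSubmodule (fun g v hv => B.apply_mem_toSubmodule g hv)
      fun e => h3.2 (eq_top_of_isCompl_bot (e ▸ h4))
    have := Submodule.finrank_add_eq_of_isCompl h4
    have := (hA A1 h6).trans (Submodule.finrank_mono h5)
    have := (hA A2 h8).trans (Submodule.finrank_mono h7)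
    omega
  obtain ⟨A, -, h6⟩ := CharDeg.exists_irreducible_le ρ0 ⊤ (fun _ _ _ => trivial) top_ne_bot
  exact Or.inr ⟨(hA A h6).trans (Submodule.finrank_le _), card_Co0 ▸ CharDeg.finrank_dvd_card ρ0⟩

/-- the minimal degree -/
theorem le_degree [Finite G] [IsSimpleGroup G] (h : MAm π τ) (hg : Subgroup.closure (Set.range π ∪ {τ}) = ⊤)
    (hz : π (z k0) ≠ 1) (hc : Nat.card G = 808017424794512875886459904961710757005754368000000000)
    (n : ℕ) (ρ : G →* GL (Fin n) ℂ) (hρ : Function.Injective ρ) : 196883 ≤ n := by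
  let ρ' : Representation ℂ G (Fin n → ℂ) :=
    (Matrix.toLinAlgEquiv' : _ ≃ₐ[ℂ] _).toMulEquiv.toMonoidHom.comp ((Units.coeHom _).comp ρ)
  obtain ⟨A, h1, h2⟩ := CharDeg.exists_irreducible_of_ne ρ' (a := π (z k0)) (b := 1) fun e =>
    hz (hρ (Units.ext (Matrix.toLinAlgEquiv'.injective e)))
  exact (le_finrank_irr h hg hc _ (by simpa using h2)).trans ((Submodule.finrank_le _).trans (finrank_fin_fun ℂ).le)

end CfsgLib.MonRep
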