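import Mathlib
import Cfsg.Agent.Lib.MonRep.Beta

/-!
`tau` is orthogonal; the representation of degree 196883 has only scalar endomorphisms.
-/

set_option autoImplicit false

namespace CfsgLib.MonRep

open Cfsg CfsgLib.Leech CfsgLib.MType CfsgLib.Mon Matrix Finset Module

variable {κ : Coord}

/-- the identity matrix -/
def idV : VV := (1, 0, 0)

theorem idV_eq : idV = (1 / 2 : ℚ) • ∑ i, An (ep i) (ep i) := by
  simp only [An_eq, ← map_sum, ← map_smul]
  refine congrArg inA (a₁ := 1) (Matrix.ext fun a b => ?_)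
  rw [Matrix.smul_apply, Matrix.sum_apply, sum_eq_single a (fun c _ h => by
    simp [vecMulVec_apply, ep, h.symm]) (by simp)]
  by_cases h : a = b <;> simp [vecMulVec_apply, ep, h, Matrix.one_apply]
  norm_num

theorem idV_mem : idV ∈ UU κ := ⟨transpose_one, fun _ _ => rfl⟩

theorem tau_idV : tau κ idV = idV := by simp only [idV_eq, map_smul, map_sum, tau_D]

theorem rho_idV (c : C κ) : rho κ c idV = idV := by
  obtain ⟨x, rfl⟩ := mk_surjective c
  simp [idV, rho_apply, repA_mk, gm_orth']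

theorem bt_idV (y : VV) : bt idV y = trV y := by simp [bt_apply, idV, mdot_apply, trV_apply]

theorem trV_idV : trV idV = 24 := by simp [trV_apply, idV]

/-- the projection onto the vectors of trace zero -/
def p0 : VV →ₗ[ℚ] VV := LinearMap.id - trV.smulRight ((1 / 24 : ℚ) • idV)

theorem p0_apply (x : VV) : p0 x = x - (trV x / 24) • idV := by
  simp [p0, smul_smul, div_eq_mul_inv]

theorem trV_p0 (x : VV) : trV (p0 x) = 0 := by simp [p0_apply, trV_idV]

theorem p0_of {x : VV} (h : trV x = 0) : p0 x = x := by simp [p0_apply, h]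

theorem p0_idV : p0 idV = 0 := by simp [p0_apply, trV_idV]

theorem p0_mem {x : VV} (h : x ∈ UU κ) : p0 x ∈ UU κ :=
  p0_apply x ▸ sub_mem h (Submodule.smul_mem _ _ idV_mem)

theorem p0_rho (c : C κ) (x : VV) : p0 (rho κ c x) = rho κ c (p0 x) := by
  simp only [p0_apply, trV_rho, map_sub, map_smul, rho_idV]

theorem p0_tau (h : Std κ) {x : VV} (hx : x ∈ UU κ) : p0 (tau κ x) = tau κ (p0 x) := by
  simp only [p0_apply, trV_tau h hx, map_sub, map_smul, tau_idV]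

theorem exists_ret (κ : Coord) : ∃ f : VV →ₗ[ℚ] UU κ, ∀ u : UU κ, f u = u :=
  let ⟨f, h⟩ := (UU κ).subtype.exists_leftInverse_of_injective (UU κ).ker_subtype
  ⟨f, LinearMap.congr_fun h⟩

/-- a retraction onto `UU` -/
noncomputable def ret (κ : Coord) : VV →ₗ[ℚ] UU κ := (exists_ret κ).choose

theorem ret_coe (u : UU κ) : ret κ u = u := (exists_ret κ).choose_spec u

theorem ret_of {u : VV} (h : u ∈ UU κ) : ret κ u = ⟨u, h⟩ := ret_coe ⟨u, h⟩

/-- the projection onto `V0` -/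
noncomputable def pr (κ : Coord) : VV →ₗ[ℚ] V0 κ :=
  ((p0 ∘ₗ (UU κ).subtype ∘ₗ ret κ).codRestrict _ fun x => p0_mem (ret κ x).2).codRestrict _
    fun _ => trV_p0 _

theorem coe_pr {u : VV} (h : u ∈ UU κ) : (pr κ u).1.1 = p0 u := congrArg (fun x : UU κ => p0 x) (ret_of h)

theorem pr_coe (u : V0 κ) : pr κ u.1.1 = u :=
  Subtype.ext (Subtype.ext ((coe_pr u.1.2).trans (p0_of u.2)))

theorem pr_idV : pr κ idV = 0 := Subtype.ext (Subtype.ext ((coe_pr idV_mem).trans p0_idV))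

namespace MRep
variable {G : Type*} [Group G] {π : C k0 →* G} {τ : G} {f : G →* GU k0}

theorem ret_rho (h : MRep π τ f) (c : C k0) {x : VV} (hx : x ∈ UU k0) :
    ret k0 (rho k0 c x) = repOf f (π c) (ret k0 x) :=
  Subtype.ext (by rw [h.coe_pi, ret_of hx, ret_of (rho_mem c hx)])

theorem ret_tau (h : MRep π τ f) {x : VV} (hx : x ∈ UU k0) :
    ret k0 (Mon.tau k0 x) = repOf f τ (ret k0 x) :=
  Subtype.ext (by rw [h.coe_tau, ret_of hx, ret_of (std_k0.tau_mem hx)])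

theorem bt_tau [Finite G] (h : MRep π τ f) {x y : VV} (hx : x ∈ UU k0) (hy : y ∈ UU k0) :
    bt (Mon.tau k0 x) (Mon.tau k0 y) = bt x y := by
  have := Fintype.ofFinite G
  let B : VV →ₗ[ℚ] VV →ₗ[ℚ] ℚ := ∑ g, bt.compl₁₂ ((UU k0).subtype ∘ₗ repOf f g ∘ₗ ret k0)
    ((UU k0).subtype ∘ₗ repOf f g ∘ₗ ret k0)
  have h1 : ∀ x y, B x y = ∑ g, bt (repOf f g (ret k0 x)).1 (repOf f g (ret k0 y)).1 := fun x y => by
    simp [B, LinearMap.sum_apply]
  have h2 : ∀ a x y x' y', ret k0 x' = repOf f a (ret k0 x) → ret k0 y' = repOf f a (ret k0 y) →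
      B x' y' = B x y := fun a x y x' y' e1 e2 => by
    rw [h1, h1, e1, e2]
    exact Fintype.sum_equiv (Equiv.mulRight a) _ _ fun g => by simp
  have h3 : ∀ x ∈ UU k0, ∀ y ∈ UU k0, B (Mon.tau k0 x) (Mon.tau k0 y) = B x y := fun x hx y hy =>
    h2 τ _ _ _ _ (h.ret_tau hx) (h.ret_tau hy)
  have hv := isShort_ub (κ := k0) (p := none) (r := some 0) (by decide)
  have h4 := @form_unique k0 std_k0 B (fun c x hx y hy => h2 _ _ _ _ _ (h.ret_rho c hx) (h.ret_rho c hy))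
    h3 _ hv
  have h5 : B (Xw (ub k0 none (some 0))) (Xw (ub k0 none (some 0))) ≠ 0 := by
    rw [h1]
    refine (sum_pos' (fun g _ => bt_nonneg _) ⟨1, mem_univ _, ?_⟩).ne'
    rw [map_one, Module.End.one_apply, ret_of (Xw_mem hv), bt_Xw_Xw, if_pos rfl]
    exact one_pos
  have h6 := h3 _ (p0_mem hx) y hy
  rw [h4 (std_k0.tau_mem (p0_mem hx)) (by rw [trV_tau std_k0 (p0_mem hx), trV_p0]) (std_k0.tau_mem hy),
    h4 (p0_mem hx) (trV_p0 x) hy, mul_right_inj' h5] at h6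
  simpa [p0_apply, tau_idV, bt_idV, trV_tau std_k0 hy] using h6

theorem coe_rep0 (h : MRep π τ f) (g : G) (u : V0 k0) : (h.rep0 g u).1 = repOf f g u.1 := rfl

theorem coe_rep0_pi (h : MRep π τ f) (c : C k0) (u : V0 k0) : (h.rep0 (π c) u).1.1 = rho k0 c u.1.1 :=
  h.coe_pi c u.1

theorem coe_rep0_tau (h : MRep π τ f) (u : V0 k0) : (h.rep0 τ u).1.1 = Mon.tau k0 u.1.1 := h.coe_tau u.1

theorem pr_rho (h : MRep π τ f) (c : C k0) {x : VV} (hx : x ∈ UU k0) :
    pr k0 (rho k0 c x) = h.rep0 (π c) (pr k0 x) :=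
  Subtype.ext (Subtype.ext (by rw [h.coe_rep0_pi, coe_pr hx, coe_pr (rho_mem c hx), p0_rho]))

theorem pr_tau (h : MRep π τ f) {x : VV} (hx : x ∈ UU k0) :
    pr k0 (Mon.tau k0 x) = h.rep0 τ (pr k0 x) :=
  Subtype.ext (Subtype.ext (by
    rw [h.coe_rep0_tau, coe_pr hx, coe_pr (std_k0.tau_mem hx), p0_tau std_k0 hx]))

theorem bt_rep [Finite G] (h : MRep π τ f) (g : G) (x y : UU k0) :
    bt (repOf f g x).1 (repOf f g y).1 = bt x.1 y.1 :=
  gen_ind h.gen h.am.cube (p := fun g => ∀ x y : UU k0, bt (repOf f g x).1 (repOf f g y).1 = bt x.1 y.1)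
    (fun c x y => by rw [h.coe_pi, h.coe_pi, bt_rho])
    (fun x y => by rw [h.coe_tau, h.coe_tau, h.bt_tau x.2 y.2])
    (fun a b ha hb x y => by rw [map_mul, Module.End.mul_apply, Module.End.mul_apply, ha, hb]) g x y

theorem end_scalar [Finite G] (h : MRep π τ f) (θ : Module.End ℚ (V0 k0))
    (hθ : ∀ g x, θ (h.rep0 g x) = h.rep0 g (θ x)) : ∃ c : ℚ, ∀ x, θ x = c • x := by
  let B : VV →ₗ[ℚ] VV →ₗ[ℚ] ℚ := bt ∘ₗ (UU k0).subtype ∘ₗ (V0 k0).subtype ∘ₗ θ ∘ₗ pr k0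
  have h1 : ∀ x y, B x y = bt (θ (pr k0 x)).1.1 y := fun _ _ => rfl
  have h4 := @form_unique k0 std_k0 B
    (fun c x hx y hy => by rw [h1, h1, h.pr_rho c hx, hθ, h.coe_rep0_pi, bt_rho])
    (fun x hx y hy => by rw [h1, h1, h.pr_tau hx, hθ, h.coe_rep0_tau, h.bt_tau (θ _).1.2 hy]) _
    (isShort_ub (κ := k0) (p := none) (r := some 0) (by decide))
  generalize B (Xw _) (Xw _) = l at h4
  refine ⟨l, fun x => sub_eq_zero.1 (Subtype.ext (Subtype.ext (bt_eq_zero ?_)))⟩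
  have := h4 x.1.2 x.2 (θ x - l • x).1.2
  rw [h1, pr_coe] at this
  change bt ((θ x).1.1 - l • x.1.1) (θ x - l • x).1.1 = 0
  rw [map_sub, map_smul, LinearMap.sub_apply, this, LinearMap.smul_apply, smul_eq_mul, sub_self]

end MRep

end CfsgLib.MonRep
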