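import Mathlib
import Cfsg.Agent.Lib.MonRep.Orth

/-!
Uniqueness of invariant trilinear forms.
-/

set_option autoImplicit false

namespace CfsgLib.MonRep

open Cfsg CfsgLib.Leech CfsgLib.MType CfsgLib.Mon Matrix Finset Module

variable {κ : Coord} {p r : GolayPt}

/-- trilinear forms -/
abbrev T3 : Type := VV →ₗ[ℚ] VV →ₗ[ℚ] VV →ₗ[ℚ] ℚ

/-- exchange of the last two arguments -/
def sw23 (F : T3) : T3 := LinearMap.lflip.toLinearMap ∘ₗ F

theorem sw23_apply (F : T3) (x y w : VV) : sw23 F x y w = F x w y := rfl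

theorem flip_apply3 (F : T3) (x y w : VV) : F.flip x y w = F y x w := rfl

/-- invariance under a linear map -/
def InvBy (κ : Coord) (F : T3) (g : VV →ₗ[ℚ] VV) : Prop :=
  ∀ x ∈ UU κ, ∀ y ∈ UU κ, ∀ w ∈ UU κ, F (g x) (g y) (g w) = F x y w

theorem InvBy.flip {F : T3} {g : VV →ₗ[ℚ] VV} (h : InvBy κ F g) : InvBy κ F.flip g :=
  fun x hx y hy w hw => h y hy x hx w hw

theorem InvBy.sw {F : T3} {g : VV →ₗ[ℚ] VV} (h : InvBy κ F g) : InvBy κ (sw23 F) g :=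
  fun x hx y hy w hw => h x hx w hw y hy

theorem InvBy.sign {F : T3} {g : VV →ₗ[ℚ] VV} (h : InvBy κ F g) {x y w x' y' w' : VV} (hx : x ∈ UU κ)
    (hy : y ∈ UU κ) (hw : w ∈ UU κ) {s t u : ZMod 2} (h1 : g x = sg s • x') (h2 : g y = sg t • y')
    (h3 : g w = sg u • w') : F x y w = sg (s + t + u) * F x' y' w' := by
  rw [← h x hx y hy w hw, h1, h2, h3]
  simp only [map_smul, LinearMap.smul_apply, smul_eq_mul, sg_add]
  ring

theorem InvBy.zero {F : T3} {g : VV →ₗ[ℚ] VV} (h : InvBy κ F g) {x y w : VV} (hx : x ∈ UU κ)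
    (hy : y ∈ UU κ) (hw : w ∈ UU κ) {s t u : ZMod 2} (h1 : g x = sg s • x) (h2 : g y = sg t • y)
    (h3 : g w = sg u • w) (e : s + t + u = 1) : F x y w = 0 := by
  have := h.sign hx hy hw h1 h2 h3
  rw [e, sg_one] at this
  linarith

theorem rho_q_An' (e : ZMod 2) (v : V24) (a b : GolayPt → ℚ) :
    rho κ (q κ e v) (An a b) = sg 0 • An a b := by rw [rho_q_An, sg_zero, one_smul]

theorem rho_An' (x : Chat κ) (a b : GolayPt → ℚ) :
    rho κ (mk κ x) (An a b) = sg 0 • An (gm x.g *ᵥ a) (gm x.g *ᵥ b) := by rw [rho_An, sg_zero, one_smul]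

theorem exists_three (i j k : GolayPt) : ∃ l, l ≠ i ∧ l ≠ j ∧ l ≠ k := by
  obtain ⟨a, b, h1, h2, h3, h4, h5⟩ := exists_two i j
  by_cases e : a = k
  exacts [⟨b, h4, h5, e ▸ h1.symm⟩, ⟨a, h2, h3, e⟩]

theorem zero_AXX' {F : T3} (h : ∀ c, InvBy κ F (rho κ c)) (a b : GolayPt → ℚ) {v w : V24}
    (hv : IsShort κ v) (hw : IsShort κ w) (e : v ≠ w) : F (An a b) (Xw v) (Xw w) = 0 := by
  obtain ⟨n, hn⟩ := exists_om_one (v := v + w) fun b => e (by rw [← add_left_inj w, b, ww_add_self])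
  exact (h (q κ 0 n)).zero (An_mem _ _) (Xw_mem hv) (Xw_mem hw) (rho_q_An' _ _ _ _) (rho_q_Xw _ _ _)
    (rho_q_Xw _ _ _) (by rw [zero_add, ← om_add_right, hn])

/-- the coefficient which determines an invariant form -/
def kF (κ : Coord) (p r : GolayPt) (F : T3) : ℚ := F (An (ep p) (ep r)) (Xw (ub κ p r)) (Xw (ub κ p r))

theorem zero_AXX (hp : p ≠ r) {F : T3} (h : ∀ c, InvBy κ F (rho κ c))
    (h1 : ∀ y ∈ UU κ, ∀ w ∈ UU κ, F idV y w = 0) (h0 : kF κ p r F = 0) (a b : GolayPt → ℚ) {v w : V24}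
    (hv : IsShort κ v) (hw : IsShort κ w) : F (An a b) (Xw v) (Xw w) = 0 := by
  have hu := isShort_ub (κ := κ) hp
  let l : VV →ₗ[ℚ] ℚ := (F.flip (Xw (ub κ p r))).flip (Xw (ub κ p r))
  have hl : ∀ x, l x = F x (Xw (ub κ p r)) (Xw (ub κ p r)) := fun _ => rfl
  have k1 : ∀ v w : leechLattice, sqNorm v.1 = 32 → sqNorm w.1 = 32 → v.1 p - v.1 r = w.1 p - w.1 r →
      l (Sq v) = l (Sq w) := fun v w a b c => by
    obtain ⟨g, h1, rfl⟩ := exists_pair_min (sqNorm_dlL hp) a (sqNorm_dlL hp) b (by rw [dot_dl, dot_dl, c])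
    obtain ⟨x, rfl⟩ := Chat.exists_g (κ := κ) g
    have := (h (mk κ x)).sign (An_mem (ratv v) (ratv v)) (Xw_mem hu) (Xw_mem hu) (rho_An' _ _ _)
      (rho_Xw _ _) (rho_Xw _ _)
    rwa [zero_add, z2_add_self, sg_zero, one_mul, act_ub h1, gm_mulVec] at this
  have k2 : ∀ i j, i ≠ j → j ≠ p → j ≠ r → l (An (ep i) (ep j)) = 0 := fun i j a b c => by
    have := k1 _ _ (sqNorm_dpL a) (sqNorm_dlL a) (by simp [dpL_apply, dlL_apply, b.symm, c.symm])
    simp only [Sq_dpL, Sq_dlL, map_add, map_sub, map_smul, smul_eq_mul] at this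
    linarith
  have k3 : ∀ i j, i ≠ j → l (An (ep i) (ep j)) = 0 := fun i j a => by
    by_cases b : j ≠ p ∧ j ≠ r
    · exact k2 i j a b.1 b.2
    by_cases c : i ≠ p ∧ i ≠ r
    · exact An_comm (ep j) (ep i) ▸ k2 j i a.symm c.1 c.2
    obtain ⟨rfl, rfl⟩ | ⟨rfl, rfl⟩ : (i = p ∧ j = r) ∨ (j = p ∧ i = r) := by grind
    exacts [h0, An_comm (ep j) (ep i) ▸ h0]
  have k4 : ∀ i j, i ≠ j → l (Sq (dpL i j)) = 16 * (l (An (ep i) (ep i)) + l (An (ep j) (ep j))) ∧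
      l (Sq (dlL i j)) = 16 * (l (An (ep i) (ep i)) + l (An (ep j) (ep j))) := fun i j a => by
    simp [Sq_dpL, Sq_dlL, k3 i j a, mul_add]
  have k5 : l (An (ep r) (ep r)) = l (An (ep p) (ep p)) := by
    obtain ⟨k, a, b, -⟩ := exists_three p r r
    have := k1 _ _ (sqNorm_dpL a.symm) (sqNorm_dlL b) (by
      simp [dpL_apply, dlL_apply, a.symm, b.symm, hp, hp.symm])
    rw [(k4 _ _ a.symm).1, (k4 _ _ b).2] at this
    linarith
  have k6 : ∀ i, l (An (ep i) (ep i)) = l (An (ep p) (ep p)) := fun i => by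
    by_cases a : i = p
    · rw [a]
    by_cases b : i = r
    · rw [b, k5]
    obtain ⟨k, c, d, e⟩ := exists_three p r i
    have e1 := k1 _ _ (sqNorm_dpL e) (sqNorm_dpL hp) (by
      simp [dpL_apply, Ne.symm a, Ne.symm b, c.symm, d.symm, hp, hp.symm])
    have e2 := k1 _ _ (sqNorm_dpL a) (sqNorm_dpL c) (by
      simp [dpL_apply, Ne.symm a, Ne.symm b, c.symm, d.symm, hp.symm])
    rw [(k4 _ _ e).1, (k4 _ _ hp).1] at e1
    rw [(k4 _ _ a).1, (k4 _ _ c).1] at e2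
    linarith
  have k7 : l (An (ep p) (ep p)) = 0 := by
    have := h1 _ (Xw_mem hu) _ (Xw_mem hu)
    rw [← hl, idV_eq, map_smul, map_sum, sum_congr rfl fun i _ => k6 i, sum_const, card_univ, card_pt,
      nsmul_eq_mul, smul_eq_mul] at this
    push_cast at this
    linarith
  have k8 : ∀ a b, l (An a b) = 0 := An_mem_of_ep (p := LinearMap.ker l) fun i j => by
    by_cases e : i = j
    exacts [e ▸ (k6 i).trans k7, k3 i j e]
  by_cases e : v = w
  · subst e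
    obtain ⟨c, hc⟩ := exists_cact_short hv hu
    obtain ⟨x, rfl⟩ := mk_surjective c
    rw [(h (mk κ x)).sign (An_mem a b) (Xw_mem hv) (Xw_mem hv) (rho_An' _ _ _) (rho_Xw' _ _) (rho_Xw' _ _),
      hc, ← hl, k8, mul_zero]
  · exact zero_AXX' h a b hv hw e

theorem exists_sep (hp : p ≠ r) : ∃ d, IsCW d ∧ p ∈ d ∧ r ∉ d := by
  obtain ⟨d, hd, e⟩ := exists_coc_ne (k := p) (l := p) hp (fun a => hp a.2) fun a => hp a.1
  simp only [coc_symmDiff, coc_singleton, z2_add_self] at e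
  by_cases a : p ∈ d
  · exact ⟨d, hd, a, fun b => by simp [a, b, z2_add_self] at e⟩
  · exact ⟨symmDiff univ d, isCW_univ.symmDiff hd, by simp [mem_symmDiff, a], by
      simpa [mem_symmDiff, a] using e⟩

theorem kF_eq (hp : p ≠ r) {F : T3} (h : ∀ c, InvBy κ F (rho κ c)) :
    F (An (ep p) (ep r)) (Um κ p r) (Up κ p r) = 2 * kF κ p r F ∧
      F (An (ep p) (ep r)) (Up κ p r) (Um κ p r) = 2 * kF κ p r F := by
  have e : lam κ p + lam κ r ≠ lam κ p + lam κ r + w0 κ := fun e => w0_ne_zero (left_eq_add.1 e)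
  obtain ⟨d, hd, a, b⟩ := exists_sep hp
  obtain ⟨x, hx⟩ := Chat.exists_g (κ := κ) (sgnAut d hd)
  have h1 := (h (mk κ x)).sign (An_mem (ep p) (ep r)) (Xw_mem (short_m hp)) (Xw_mem (short_m hp))
    (rho_An' _ _ _) (rho_Xw _ _) (rho_Xw _ _)
  simp only [hx, gm_sgn_ep, act_sgn_pair, a, b, if_true, if_false, add_zero, zero_add, z2_add_self, sg_zero,
    sg_one, one_smul, An_smul_left, map_smul, LinearMap.smul_apply, smul_eq_mul] at h1
  simp only [Um, Up, map_add, map_sub, LinearMap.add_apply, LinearMap.sub_apply, kF, ub,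
    zero_AXX' h _ _ (short_m hp) (short_p hp) e, zero_AXX' h _ _ (short_p hp) (short_m hp) e.symm]
  constructor <;> linarith

/-- the vectors with trivial first component -/
def XT (κ : Coord) : Submodule ℚ VV := UU κ ⊓ LinearMap.ker (LinearMap.fst ℚ _ _)

theorem XT_le {S : Submodule ℚ VV} (hX : ∀ w, IsShort κ w → Xw w ∈ S) (hT : ∀ i k, Tn (ep i) (eb k) ∈ S) :
    XT κ ≤ S := fun u hu => by
  have := UU_le (p := S.comap (LinearMap.id - inA ∘ₗ LinearMap.fst ℚ _ _)) (fun i j => ?_)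
    (fun w hw => ?_) (fun i k => ?_) hu.1
  · simpa [show u.1 = 0 from hu.2] using this
  · exact Submodule.mem_comap.2 ((sub_self (An (ep i) (ep j))).symm ▸ S.zero_mem :
      An (ep i) (ep j) - An (ep i) (ep j) ∈ S)
  · simpa [Xw] using hX w hw
  · simpa [Tn] using hT i k

theorem Xw_mem_XT {w : V24} (h : IsShort κ w) : Xw w ∈ XT κ := ⟨Xw_mem h, rfl⟩

theorem Tn_mem_XT (a : GolayPt → ℚ) (s : W12 → ℚ) : Tn a s ∈ XT κ := ⟨Tn_mem _ _, rfl⟩

theorem rho_mem_XT (c : C κ) {u : VV} (h : u ∈ XT κ) : rho κ c u ∈ XT κ :=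
  ⟨rho_mem c h.1, by
    change repA κ c u.1 = 0
    rw [show u.1 = 0 from h.2, map_zero]⟩

theorem tau_rad (hs : Std κ) {F : T3} (h : InvBy κ F (tau κ)) {x y : VV} (hx : x ∈ UU κ) (hy : y ∈ UU κ)
    (e : y ∈ radU κ (F x)) : tau κ y ∈ radU κ (F (tau κ x)) := mem_radU.2 fun w hw => by
  have := hs.tau_mem (hs.tau_mem hw)
  rw [← hs.tau_cube hw, h x hx y hy _ this, mem_radU.1 e _ this]

theorem rho_rad {F : T3} {c : C κ} (h : InvBy κ F (rho κ c)) {x y : VV} (hx : x ∈ UU κ) (hy : y ∈ UU κ)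
    (e : y ∈ radU κ (F x)) : rho κ c y ∈ radU κ (F (rho κ c x)) := mem_radU.2 fun w hw => by
  rw [← rho_rho_inv c w, h x hx y hy _ (rho_mem _ hw), mem_radU.1 e _ (rho_mem _ hw)]

theorem zero_A_XT (hs : Std κ) {F : T3} (h : ∀ c, InvBy κ F (rho κ c)) (ht : InvBy κ F (tau κ))
    (hA : ∀ a b v, IsShort κ v → F (An a b) (Xw v) (Xw v) = 0) (a b : GolayPt → ℚ) :
    XT κ ≤ radU κ (F (An a b)) := by
  have k1 : ∀ a b v, IsShort κ v → Xw v ∈ radU κ (F (An a b)) := fun a b v hv => by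
    refine mem_radU.2 fun y hy => UU_le (p := LinearMap.ker (F (An a b) (Xw v))) (fun i j => ?_)
      (fun w hw => ?_) (fun i k => ?_) hy
    · obtain ⟨n, hn⟩ := exists_om_one (short_ne_zero hv)
      exact (h (q κ 0 n)).zero (An_mem _ _) (Xw_mem hv) (An_mem _ _) (rho_q_An' _ _ _ _) (rho_q_Xw _ _ _)
        (rho_q_An' _ _ _ _) (by rw [hn]; rfl)
    · by_cases e : v = w
      exacts [e ▸ hA a b v hv, zero_AXX' h a b hv hw e]
    · exact (h (z κ)).zero (An_mem _ _) (Xw_mem hv) (Tn_mem _ _) (s := 0) (t := 0) (u := 1)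
        (by simp [rho_z_An]) (by simp [rho_z_Xw]) (by simp [rho_z_Tn]) rfl
  let S : Submodule ℚ VV := ⨅ y : XT κ, (radU κ (F.flip y))
  have hS : ∀ x, x ∈ S ↔ XT κ ≤ radU κ (F x) := fun x => by
    simp only [S, Submodule.mem_iInf, mem_radU, Subtype.forall]
    exact ⟨fun e y hy => mem_radU.2 (e y hy), fun e y hy => mem_radU.1 (e hy)⟩
  have k2 : CInv κ S := fun c x hx e => (hS _).2 fun y hy =>
    rho_rho_inv c y ▸ rho_rad (h c) hx (rho_mem _ hy.1) ((hS _).1 e (rho_mem_XT _ hy))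
  refine (hS _).1 (An_mem_of_ep (k2.A fun i => (hS _).2 (XT_le (k1 _ _) (Tn_mem_of hs fun j w hw => ?_))) a b)
  have e1 := tau_rad hs ht (An_mem _ _) (Xw_mem hw.isShort) (k1 (ep i) (ep i) w hw.isShort)
  rw [tau_D, tau_Xs hw] at e1
  have e2 := tau_rad hs ht (An_mem _ _) (YY_mem _ _) e1
  rw [tau_D, hs.tau_YY hw] at e2
  exact ⟨e1, e2⟩

theorem os_lam (i : GolayPt) : OS κ i (lam κ i) := ⟨∅, isCW_empty, by rw [sgnAut_empty, one_smul]; rfl⟩

theorem HH_mem_XT {o : Finset GolayPt} (ho : IsCW o) (h8 : o.card = 8) (δ : Finset GolayPt) :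
    HH κ o δ ∈ XT κ :=
  sum_mem fun _ hε => Submodule.smul_mem _ _ (Xw_mem_XT ⟨_, sqNorm_ov ho h8 hε, rfl⟩)

/-- an invariant form with vanishing coefficient is zero -/
theorem tri_zero (hs : Std κ) (hp : p ≠ r) {F : T3} (h : ∀ c, InvBy κ F (rho κ c))
    (ht : InvBy κ F (tau κ)) (h1 : ∀ y ∈ UU κ, ∀ w ∈ UU κ, F idV y w = 0 ∧ F y idV w = 0 ∧ F y w idV = 0)
    (h0 : kF κ p r F = 0) {x y w : VV} (hx : x ∈ UU κ) (hy : y ∈ UU κ) (hw : w ∈ UU κ) : F x y w = 0 := by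
  have hu := isShort_ub (κ := κ) hp
  have e1 := ht _ (An_mem (ep p) (ep r)) _ (Um_mem hp) _ (Up_mem hp)
  rw [tau_A hp, tau_Um hp, tau_Up hp, (kF_eq hp h).1, h0] at e1
  have e2 := ht _ (Um_mem hp) _ (Up_mem hp) _ (An_mem (ep p) (ep r))
  rw [tau_A hp, tau_Um hp, tau_Up hp, e1] at e2
  have e3 := (kF_eq hp (F := F.flip) fun c => (h c).flip).2
  have e4 := (kF_eq hp (F := (sw23 F).flip) fun c => (h c).sw.flip).1
  rw [flip_apply3, e2] at e3
  rw [flip_apply3, sw23_apply, e1] at e4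
  have a1 := zero_A_XT hs h ht fun a b v hv => zero_AXX hp h (fun y hy w hw => (h1 y hy w hw).1) h0 a b hv hv
  have a2 := zero_A_XT hs (F := F.flip) (fun c => (h c).flip) ht.flip fun a b v hv =>
    zero_AXX hp (fun c => (h c).flip) (fun y hy w hw => (h1 y hy w hw).2.1) (by linarith) a b hv hv
  have a3 := fun a b => zero_AXX hp (F := (sw23 F).flip) (fun c => (h c).sw.flip)
    (fun y hy w hw => (h1 y hy w hw).2.2) (by linarith) a b hu hu
  let K := radU κ (F (Xw (ub κ p r)))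
  have b1 : ∀ y ∈ UU κ, tau κ y ∈ XT κ → tau κ (tau κ y) ∈ XT κ → y ∈ K := fun y hy c d => by
    have c1 := tau_rad hs ht (An_mem _ _) d.1 (a1 (ep p) (ep r) d)
    have c2 := tau_rad hs ht (hs.tau_mem (An_mem _ _)) (hs.tau_mem c.1)
      (tau_rad hs ht (An_mem _ _) c.1 (a1 (ep p) (ep r) c))
    rw [hs.tau_cube hy, tau_A hp] at c1 c2
    rw [tau_Um hp] at c2
    refine mem_radU.2 fun w hw => ?_
    have c3 := mem_radU.1 c1 w hw
    have c4 := mem_radU.1 c2 w hw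
    simp only [Um, Up, map_add, map_sub, LinearMap.add_apply, LinearMap.sub_apply] at c3 c4
    rw [ub]; linarith
  have b2 : ∀ i w, OS κ i w → Xw w ∈ K ∧ YY κ i w ∈ K ∧ ZZ κ i w ∈ K := fun i w hw =>
    ⟨b1 _ (Xw_mem hw.isShort) (tau_Xs hw ▸ Tn_mem_XT _ _) (by rw [tau_Xs hw, hs.tau_YY hw]; exact Tn_mem_XT _ _),
      b1 _ (YY_mem _ _) (hs.tau_YY hw ▸ Tn_mem_XT _ _)
        (by rw [hs.tau_YY hw, hs.tau_ZZ hw]; exact Xw_mem_XT hw.isShort),
      b1 _ (ZZ_mem _ _) (hs.tau_ZZ hw ▸ Xw_mem_XT hw.isShort)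
        (by rw [hs.tau_ZZ hw, tau_Xs hw]; exact Tn_mem_XT _ _)⟩
  have b3 : Xw (ub κ p r) ∈ K := by
    refine mem_radU.2 fun y hy => UU_le (p := LinearMap.ker (F _ _)) (fun i j => a3 _ _)
      (fun w hw => ?_) (fun i k => ?_) hy
    · obtain ⟨n, hn⟩ := exists_om_one (short_ne_zero hw)
      exact (h (q κ 0 n)).zero (Xw_mem hu) (Xw_mem hu) (Xw_mem hw) (rho_q_Xw _ _ _) (rho_q_Xw _ _ _)
        (rho_q_Xw _ _ _) (by rw [z2_add_self, zero_add, hn])
    · exact (h (z κ)).zero (Xw_mem hu) (Xw_mem hu) (Tn_mem _ _) (s := 0) (t := 0) (u := 1)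
        (by simp [rho_z_Xw]) (by simp [rho_z_Xw]) (by simp [rho_z_Tn]) rfl
  have b4 : ∀ v : leechLattice, sqNorm v.1 = 32 → (v.1 p - v.1 r) % 4 = 0 → Xw (κ.φ v) ∈ K := by
    intro v c d
    have key : ∀ i, (lamL i).1 p - (lamL i).1 r = v.1 p - v.1 r → Xw (κ.φ v) ∈ K := fun i e => by
      obtain ⟨g, f1, rfl⟩ := exists_pair_min (sqNorm_dlL hp) (sqNorm_lamL i) (sqNorm_dlL hp) c
        (by rw [dot_dl, dot_dl, e])
      obtain ⟨x, rfl⟩ := Chat.exists_g (κ := κ) g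
      have := rho_rad (h (mk κ x)) (Xw_mem hu) (Xw_mem (os_lam i).isShort) (b2 i _ (os_lam i)).1
      rw [rho_Xw, rho_Xw, act_ub f1, Submodule.smul_mem_iff _ (sg_ne_zero _), lam, κ.act_φ] at this
      exact mem_radU.2 fun w hw => by simpa [sg_ne_zero] using mem_radU.1 this w hw
    obtain ⟨k, k1, k2, -⟩ := exists_three p r r
    have d1 := dot_cases (sqNorm_dlL hp) c
    rw [dot_dl] at d1
    rcases d1 with rfl | rfl | e | e | e | e | e
    · exact φ_ub (κ := κ) ▸ b3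
    · exact (κ.φ_neg _).symm ▸ φ_ub (κ := κ) ▸ b3
    · exact key p (by simp [lamL_apply, hp.symm]; omega)
    · omega
    · exact key k (by simp [lamL_apply, k1.symm, k2.symm]; omega)
    · omega
    · exact key r (by simp [lamL_apply, hp]; omega)
  have b5 : UU κ ≤ K := by
    have b0 : ∀ a b, An a b ∈ K := fun a b => mem_radU.2 fun w hw =>
      (flip_apply3 F _ _ _).symm.trans (mem_radU.1 (a2 a b (Xw_mem_XT hu)) w hw)
    refine hs.UU_le' (fun i => b0 _ _) (fun i j e => ?_)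
      (fun o δ c d e => b1 _ (Xw_mem ⟨_, sqNorm_ov c d e, rfl⟩) ?_ ?_) b2
    · have c1 := b4 _ (sqNorm_dlL e) (by simp only [dlL_apply]; split_ifs <;> rfl)
      have c2 := b4 _ (sqNorm_dpL e) (by simp only [dpL_apply]; split_ifs <;> rfl)
      rw [φ_dlL] at c1
      rw [φ_dpL] at c2
      exact ⟨b0 _ _, add_mem c1 c2, sub_mem c1 c2⟩
    · rw [tau_Xo c d e]; exact HH_mem_XT c d δ
    · rw [tau_Xo c d e, HH, map_sum]
      exact sum_mem fun ε hε => by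
        rw [map_smul, tau_Xo c d hε]; exact Submodule.smul_mem _ _ (HH_mem_XT c d ε)
  let Z : Submodule ℚ VV := ⨅ y : UU κ, (radU κ (F.flip y))
  have hZ : ∀ x, x ∈ Z ↔ UU κ ≤ radU κ (F x) := fun x => by
    simp only [Z, Submodule.mem_iInf, mem_radU, Subtype.forall]
    exact ⟨fun e y hy => mem_radU.2 (e y hy), fun e y hy => mem_radU.1 (e hy)⟩
  have := CInv.V0_le hs (p := Z) (fun c x hx e => (hZ _).2 fun y hy =>
      rho_rho_inv c y ▸ rho_rad (h c) hx (rho_mem _ hy) ((hZ _).1 e (rho_mem _ hy)))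
    (fun x hx e => (hZ _).2 fun y hy => hs.tau_cube hy ▸ tau_rad hs ht hx (hs.tau_mem (hs.tau_mem hy))
      ((hZ _).1 e (hs.tau_mem (hs.tau_mem hy)))) hu ((hZ _).2 b5) (p0_mem hx) (trV_p0 x)
  simpa [p0_apply, (h1 y hy w hw).1] using mem_radU.1 ((hZ _).1 this hy) w hw

end CfsgLib.MonRep
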