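import Mathlib
import Cfsg.Agent.Lib.MonRep.Uniq

/-!
The cubic form of the Griess algebra: definition, invariance under `C`, multiplication table.
-/

set_option autoImplicit false

namespace CfsgLib.MonRep

open Cfsg CfsgLib.Leech CfsgLib.MType CfsgLib.Mon Matrix Finset Module

variable {κ : Coord}

open Classical in
/-- `v vᵀ` for a minimal vector `v` in the class -/
noncomputable def Mv (κ : Coord) (x : V24) : Matrix GolayPt GolayPt ℚ :=
  if h : IsShort κ x then vecMulVec (ratv h.choose) (ratv h.choose) else 0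

theorem ratv_neg (v : leechLattice) : ratv (-v) = -ratv v := by funext i; simp [ratv]

theorem Mv_φ {v : leechLattice} (hv : sqNorm v.1 = 32) : Mv κ (κ.φ v) = vecMulVec (ratv v) (ratv v) := by
  have h : IsShort κ (κ.φ v) := ⟨v, hv, rfl⟩
  rw [Mv, dif_pos h]
  obtain ⟨h1, h2⟩ := h.choose_spec
  rcases (κ.φ_eq_iff.1 h2).short (by omega) (by omega) with e | e | e
  · exact congrArg (fun v => vecMulVec (ratv v) (ratv v)) e.symm
  · refine (congrArg (fun v => vecMulVec (ratv v) (ratv v)) e).symm ▸ ?_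
    simp only [ratv_neg, neg_vecMulVec, vecMulVec_neg, neg_neg]
  · omega

theorem Mv_act (g : Co0) (x : V24) : Mv κ (κ.act g x) = gm g * Mv κ x * (gm g)ᵀ := by
  by_cases h : IsShort κ x
  · obtain ⟨v, hv, rfl⟩ := h
    rw [κ.act_φ, Mv_φ hv, Mv_φ (by rw [sqNorm_smul, hv]), mul_vecMulVec, vecMulVec_mul, vecMul_transpose,
      gm_mulVec]
  · rw [Mv, Mv, dif_neg h, dif_neg fun e => h (κ.act_inv_act g x ▸ e.act g⁻¹), Matrix.mul_zero,
      Matrix.zero_mul]

theorem Mv_transpose (x : V24) : (Mv κ x)ᵀ = Mv κ x := by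
  rw [Mv]; split_ifs <;> simp [transpose_vecMulVec]

/-- the part `A X X` -/
noncomputable def hAXX (κ : Coord) (A : Matrix GolayPt GolayPt ℚ) (f g : V24 → ℚ) : ℚ :=
  ∑ v, mdot A (Mv κ v) * (f v * g v)

/-- the part `X X X` -/
def hXXX (f g h : V24 → ℚ) : ℚ := ∑ u, ∑ v, sg (bet u v) * (f u * g v * h (u + v))

/-- the part `A T T` -/
def hATT (A : Matrix GolayPt GolayPt ℚ) (S T : Matrix GolayPt W12 ℚ) : ℚ :=
  8 * mdot S (A * T) + trace A * mdot S T

/-- the part `X T T` -/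
noncomputable def hXTT (κ : Coord) (f : V24 → ℚ) (S T : Matrix GolayPt W12 ℚ) : ℚ :=
  ∑ v, f v * mdot S ((1 - (1 / 4 : ℚ) • Mv κ v) * T * (P v)ᵀ)

/-- the form before symmetrisation -/
noncomputable def hG (κ : Coord) (x y w : VV) : ℚ :=
  16 / 3 * trace (x.1 * y.1 * w.1) + 1 / 2 * hAXX κ x.1 y.2.1 w.2.1 + 4 / 3 * hXXX x.2.1 y.2.1 w.2.1 +
    1 / 2 * hATT x.1 y.2.2 w.2.2 + 1 / 2 * hXTT κ x.2.1 y.2.2 w.2.2

/-- a trilinear form from a function -/
def mk3 (f : VV → VV → VV → ℚ) (h1 : ∀ y w, IsLinearMap ℚ fun x => f x y w)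
    (h2 : ∀ x w, IsLinearMap ℚ fun y => f x y w) (h3 : ∀ x y, IsLinearMap ℚ (f x y)) : T3 :=
  LinearMap.mk₂ ℚ (fun x y => (h3 x y).mk' _) (fun a b y => LinearMap.ext fun w => (h1 y w).1 a b)
    (fun c a y => LinearMap.ext fun w => (h1 y w).2 c a)
    (fun x a b => LinearMap.ext fun w => (h2 x w).1 a b) fun c x a => LinearMap.ext fun w => (h2 x w).2 c a

/-- the form before symmetrisation, bundled -/
noncomputable def HG (κ : Coord) : T3 := by
  refine mk3 (hG κ) (fun y w => ⟨fun a b => ?_, fun c a => ?_⟩) (fun y w => ⟨fun a b => ?_, fun c a => ?_⟩)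
    fun y w => ⟨fun a b => ?_, fun c a => ?_⟩ <;>
  simp only [hG, hAXX, hXXX, hATT, hXTT, Prod.fst_add, Prod.snd_add, Prod.smul_fst, Prod.smul_snd,
    Pi.add_apply, Pi.smul_apply, Matrix.add_mul, Matrix.mul_add, Matrix.smul_mul, Matrix.mul_smul,
    trace_add, trace_smul, map_add, map_smul, LinearMap.add_apply, LinearMap.smul_apply, smul_eq_mul,
    add_mul, mul_add, sum_add_distrib, mul_assoc, mul_left_comm _ _ (_ : ℚ), ← mul_sum] <;> ring

theorem HG_apply (x y w : VV) : HG κ x y w = hG κ x y w := rfl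

/-- the cubic form of the Griess algebra -/
noncomputable def FG (κ : Coord) : T3 :=
  (HG κ + sw23 (HG κ)) + (HG κ + sw23 (HG κ)).flip + sw23 (HG κ + sw23 (HG κ)).flip

theorem FG_apply (x y w : VV) : FG κ x y w =
    hG κ x y w + hG κ x w y + (hG κ y x w + hG κ y w x) + (hG κ w x y + hG κ w y x) := rfl

theorem FG_comm (x y w : VV) : FG κ x y w = FG κ y x w := by simp only [FG_apply]; ring

theorem FG_comm' (x y w : VV) : FG κ x y w = FG κ x w y := by simp only [FG_apply]; ring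

theorem sum_cact (c : C κ) (f : V24 → ℚ) : ∑ v, f (cact c v) = ∑ v, f v :=
  Fintype.sum_bijective (cact c) (Finite.injective_iff_bijective.1 (cact_injective c)) _ _ fun _ => rfl

theorem hG_rho (c : C κ) (x y w : VV) : hG κ (rho κ c x) (rho κ c y) (rho κ c w) = hG κ x y w := by
  have h1 : hXXX (repX κ c x.2.1) (repX κ c y.2.1) (repX κ c w.2.1) = hXXX x.2.1 y.2.1 w.2.1 := by
    rw [hXXX, ← sum_cact c]
    refine sum_congr rfl fun u _ => ?_
    rw [← sum_cact c]
    refine sum_congr rfl fun v _ => ?_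
    have := congrArg Mon.sg (cε_add c u v)
    simp only [sg_add] at this
    rw [← map_add, repX_apply_cact, repX_apply_cact, repX_apply_cact]
    linear_combination (-(x.2.1 u * y.2.1 v * w.2.1 (u + v)) * sg (cε c (u + v))) * this +
      (sg (bet u v) * (x.2.1 u * y.2.1 v * w.2.1 (u + v))) * sg_mul_self (cε c (u + v))
  obtain ⟨a, rfl⟩ := mk_surjective c
  have o := gm_orth a.g
  have h2 : hAXX κ (repA κ (mk κ a) x.1) (repX κ (mk κ a) y.2.1) (repX κ (mk κ a) w.2.1) =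
      hAXX κ x.1 y.2.1 w.2.1 := by
    rw [hAXX, ← sum_cact (mk κ a)]
    refine sum_congr rfl fun v _ => ?_
    rw [repX_apply_cact, repX_apply_cact, cact_mk, Mv_act, repA_mk, mdot_conj o o, mul_mul_mul_comm,
      sg_mul_self, one_mul]
  have h3 : ∀ {n : Type} (B : Matrix GolayPt n ℚ), (gm a.g)ᵀ * (gm a.g * B) = B := fun B => by
    rw [← Matrix.mul_assoc, o, Matrix.one_mul]
  have h4 : hXTT κ (repX κ (mk κ a) x.2.1) (repT κ (mk κ a) y.2.2) (repT κ (mk κ a) w.2.2) =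
      hXTT κ x.2.1 y.2.2 w.2.2 := by
    rw [hXTT, ← sum_cact (mk κ a)]
    refine sum_congr rfl fun v _ => ?_
    have e1 : a.Sᵀ * (P (κ.act a.g v))ᵀ = sg (a.ε v) • ((P v)ᵀ * a.Sᵀ) := by
      rw [← transpose_mul, ← transpose_mul, a.S_mul_P, transpose_smul, smul_smul, sg_mul_self, one_smul]
    have e2 : (1 - (1 / 4 : ℚ) • (gm a.g * Mv κ v * (gm a.g)ᵀ)) * (gm a.g * w.2.2 * a.Sᵀ) *
        (P (κ.act a.g v))ᵀ =
        sg (a.ε v) • (gm a.g * ((1 - (1 / 4 : ℚ) • Mv κ v) * w.2.2 * (P v)ᵀ) * a.Sᵀ) := by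
      simp only [Matrix.sub_mul, Matrix.mul_sub, Matrix.smul_mul, Matrix.mul_smul, Matrix.mul_assoc,
        Matrix.one_mul, h3, e1, smul_sub]
      rw [smul_comm]
    rw [repX_apply_cact, cact_mk, cε_mk, Mv_act, repT_mk, repT_mk, e2, map_smul, mdot_conj o a.orth,
      smul_eq_mul, mul_mul_mul_comm, sg_mul_self, one_mul]
  have h5 : hATT (repA κ (mk κ a) x.1) (repT κ (mk κ a) y.2.2) (repT κ (mk κ a) w.2.2) =
      hATT x.1 y.2.2 w.2.2 := by
    rw [hATT, hATT, ← mdot_conj o a.orth y.2.2 (x.1 * _), repT_mk, repT_mk, mdot_conj o a.orth y.2.2 w.2.2,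
      repA_mk, trace_mul_cycle, o, Matrix.one_mul]
    simp only [Matrix.mul_assoc, h3]
  have h6 : trace (repA κ (mk κ a) x.1 * repA κ (mk κ a) y.1 * repA κ (mk κ a) w.1) =
      trace (x.1 * y.1 * w.1) := by
    simp only [repA_mk, Matrix.mul_assoc, h3]
    rw [trace_mul_comm]
    simp only [Matrix.mul_assoc, o, Matrix.mul_one]
  simp only [hG, rho_apply, h1, h2, h4, h5, h6]

theorem FG_rho (c : C κ) : InvBy κ (FG κ) (rho κ c) := fun x _ y _ w _ => by simp only [FG_apply, hG_rho]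

/-! ### the multiplication table -/

theorem hXXX_12 (v w : V24) (h : V24 → ℚ) :
    hXXX (Pi.single v 1) (Pi.single w 1) h = sg (bet v w) * h (v + w) := by
  rw [hXXX, sum_eq_single v (fun u _ e => by simp [e]) (by simp),
    sum_eq_single w (fun u _ e => by simp [e]) (by simp)]
  simp

theorem hXXX_13 (v w : V24) (h : V24 → ℚ) :
    hXXX (Pi.single v 1) h (Pi.single w 1) = sg (bet v (v + w)) * h (v + w) := by
  have e : v + (v + w) = w := by rw [← add_assoc, ww_add_self, zero_add]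
  rw [hXXX, sum_eq_single v (fun u _ e => by simp [e]) (by simp),
    sum_eq_single (v + w) (fun u _ a => by
      rw [Pi.single_eq_of_ne fun b => a (add_left_cancel (b.trans e.symm)), mul_zero, mul_zero]) (by simp)]
  simp [e]

theorem hXXX_23 (v w : V24) (h : V24 → ℚ) :
    hXXX h (Pi.single v 1) (Pi.single w 1) = sg (bet (v + w) v) * h (v + w) := by
  have e : v + w + v = w := by rw [add_right_comm, ww_add_self, zero_add]
  rw [hXXX, sum_comm, sum_eq_single v (fun u _ e => by simp [e]) (by simp),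
    sum_eq_single (v + w) (fun u _ a => by
      rw [Pi.single_eq_of_ne fun b => a (add_right_cancel (b.trans e.symm)), mul_zero, mul_zero]) (by simp)]
  simp [e]

theorem hAXX_2 (A : Matrix GolayPt GolayPt ℚ) (v : V24) (g : V24 → ℚ) :
    hAXX κ A (Pi.single v 1) g = mdot A (Mv κ v) * g v := by
  rw [hAXX, sum_eq_single v (fun u _ e => by simp [e]) (by simp)]; simp

theorem hAXX_comm (A : Matrix GolayPt GolayPt ℚ) (f g : V24 → ℚ) : hAXX κ A f g = hAXX κ A g f := by
  simp only [hAXX, mul_comm (f _)]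

theorem hXTT_1 (v : V24) (S T : Matrix GolayPt W12 ℚ) :
    hXTT κ (Pi.single v 1) S T = mdot S ((1 - (1 / 4 : ℚ) • Mv κ v) * T * (P v)ᵀ) := by
  rw [hXTT, sum_eq_single v (fun u _ e => by simp [e]) (by simp)]; simp

theorem h_zero : (∀ f g, hAXX κ 0 f g = 0) ∧ (∀ A g, hAXX κ A 0 g = 0) ∧ (∀ A f, hAXX κ A f 0 = 0) ∧
    (∀ f g, hXXX 0 f g = 0) ∧ (∀ f g, hXXX f 0 g = 0) ∧ (∀ f g, hXXX f g 0 = 0) ∧
    (∀ S T, hATT 0 S T = 0) ∧ (∀ A T, hATT A 0 T = 0) ∧ (∀ A S, hATT A S 0 = 0) ∧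
    (∀ S T, hXTT κ 0 S T = 0) ∧ (∀ f T, hXTT κ f 0 T = 0) ∧ ∀ f S, hXTT κ f S 0 = 0 := by
  simp [hAXX, hXXX, hATT, hXTT]

theorem mdot_mul_left {m n : Type} [Fintype m] [Fintype n] (L : Matrix m m ℚ) (A B : Matrix m n ℚ) :
    mdot A (L * B) = mdot (Lᵀ * A) B := by
  simp only [mdot_apply, transpose_mul, transpose_transpose, Matrix.mul_assoc]

theorem mdot_mul_right {m n : Type} [Fintype m] [Fintype n] (R : Matrix n n ℚ) (A B : Matrix m n ℚ) :
    mdot A (B * Rᵀ) = mdot (A * R) B := by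
  rw [mdot_apply, mdot_apply, ← Matrix.mul_assoc, trace_mul_comm, transpose_mul, Matrix.mul_assoc]

theorem FG_AA {A B : Matrix GolayPt GolayPt ℚ} (hA : Aᵀ = A) (hB : Bᵀ = B) (y : VV) :
    FG κ (A, 0, 0) (B, 0, 0) y = 16 * mdot (A * B + B * A) y.1 := by
  simp only [FG_apply, hG, h_zero (κ := κ), mdot_apply, transpose_add, transpose_mul, hA, hB, Matrix.add_mul,
    trace_add, trace_mul_cycle A y.1, trace_mul_cycle B y.1, trace_mul_cycle A B, trace_mul_cycle B A]
  ring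

theorem FG_AX (A : Matrix GolayPt GolayPt ℚ) (w : V24) (y : VV) :
    FG κ (A, 0, 0) (Xw w) y = mdot A (Mv κ w) * y.2.1 w := by
  simp only [FG_apply, hG, Xw, h_zero (κ := κ), hAXX_comm A y.2.1, hAXX_2, Matrix.mul_zero, Matrix.zero_mul,
    trace_zero]
  ring

theorem FG_AT {A : Matrix GolayPt GolayPt ℚ} (hA : Aᵀ = A) (c : GolayPt → ℚ) (s : W12 → ℚ) (y : VV) :
    FG κ (A, 0, 0) (Tn c s) y = bt (Tn ((8 : ℚ) • A *ᵥ c + trace A • c) s) y := by
  simp only [FG_apply, hG, Tn, h_zero (κ := κ), Matrix.mul_zero, Matrix.zero_mul, trace_zero]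
  simp only [hATT, bt_apply, mdot_mul_left A (vecMulVec c s), hA, mdot_comm y.2.2, mul_vecMulVec,
    add_vecMulVec, smul_vecMulVec, map_add, map_smul, map_zero, LinearMap.add_apply, LinearMap.smul_apply,
    LinearMap.zero_apply, zero_dotProduct, smul_eq_mul]
  ring

theorem FG_XX {v w : V24} (hv : qf v = 0) (hw : qf w = 0) {y : VV} (h : om v w = 0 ∨ y.2.1 (v + w) = 0) :
    FG κ (Xw v) (Xw w) y =
      (if v = w then mdot (Mv κ v) y.1 else 0) + 8 * sg (bet w v) * y.2.1 (v + w) := by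
  simp only [FG_apply, hG, Xw, h_zero (κ := κ), hAXX_2, hXXX_12, hXXX_13, hXXX_23, Matrix.mul_zero,
    Matrix.zero_mul, trace_zero, add_comm w v, bet_add_left, bet_add_right, show bet v v = 0 from hv,
    show bet w w = 0 from hw, Pi.single_apply, zero_add, add_zero, mul_zero, mdot_comm y.1]
  have e : sg (bet v w) * y.2.1 (v + w) = sg (bet w v) * y.2.1 (v + w) := by
    rcases h with h | h
    · rw [← add_zero (bet v w), ← h, om, ← add_assoc, z2_add_self, zero_add]
    · rw [h, mul_zero, mul_zero]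
  rw [e]
  by_cases a : v = w
  · subst a; simp only [if_true]; ring
  · simp only [a, Ne.symm a, if_false]; ring

theorem FG_XT {v : V24} (hv : qf v = 0) (c : GolayPt → ℚ) (s : W12 → ℚ) (y : VV) :
    FG κ (Xw v) (Tn c s) y = bt (Tn (c - (1 / 4 : ℚ) • Mv κ v *ᵥ c) (P v *ᵥ s)) y := by
  have e : (P v)ᵀ = P v := by rw [P_transpose, hv, sg_zero, one_smul]
  simp only [FG_apply, hG, Xw, Tn, h_zero (κ := κ), hXTT_1, Matrix.mul_zero, Matrix.zero_mul, trace_zero]
  rw [mdot_mul_right, mdot_mul_left, mdot_comm y.2.2, transpose_sub, transpose_smul, transpose_one,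
    Mv_transpose, ← Matrix.mul_assoc, e, mul_vecMulVec, vecMulVec_mul, ← e, vecMul_transpose, e, bt_apply,
    sub_mulVec, one_mulVec, smul_mulVec]
  simp only [map_zero, LinearMap.zero_apply, zero_dotProduct]
  ring

end CfsgLib.MonRep
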