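import Mathlib
import Cfsg.Agent.Lib.MonRep.Gr1

/-!
Multiplication by the axis commutes with `tau`.
-/

set_option autoImplicit false

namespace CfsgLib.MonRep

open Cfsg CfsgLib.Leech CfsgLib.MType CfsgLib.Mon Matrix Finset Module

variable {κ : Coord} {p r : GolayPt}

/-- the axis -/
def ax (κ : Coord) (p r : GolayPt) : VV := (1 / 2 : ℚ) • An (uv p r) (uv p r) - (2 : ℚ) • Xw (ub κ p r)

theorem ax_mem (hp : p ≠ r) : ax κ p r ∈ UU κ :=
  sub_mem (Submodule.smul_mem _ _ (An_mem _ _)) (Submodule.smul_mem _ _ (Xw_mem (isShort_ub hp)))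

theorem ax_eq : ax κ p r = (1 / 2 : ℚ) • (An (ep p) (ep p) + An (ep r) (ep r)) - An (ep p) (ep r) -
    Um κ p r - Up κ p r := by
  simp only [ax, uv, An_sub_left, An_sub_right, An_comm (ep r) (ep p), Um, Up, ub]
  module

theorem tau_ax (hp : p ≠ r) : tau κ (ax κ p r) = ax κ p r := by
  simp only [ax_eq, map_sub, map_add, map_smul, tau_D, tau_A hp, tau_Um hp, tau_Up hp]
  abel

theorem uv_uv (hp : p ≠ r) : uv p r ⬝ᵥ uv p r = 2 := by
  simp [uv, ep, hp, hp.symm]; norm_num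

theorem qf_ub : qf (ub κ p r) = 0 := by rw [ub, qf_add, qf_lam, qf_lam, om_lam_lam]; rfl

theorem Mv_ub (hp : p ≠ r) : Mv κ (ub κ p r) = (16 : ℚ) • vecMulVec (uv p r) (uv p r) := by
  rw [← φ_ub, Mv_φ (sqNorm_dlL hp), ratv_dlL, smul_vecMulVec, vecMulVec_smul, smul_smul]; norm_num

/-- multiplication by the axis, without the parts for the eigenvalues `1` and `1/32` -/
noncomputable def Ph (κ : Coord) (p r : GolayPt) : VV →ₗ[ℚ] VV →ₗ[ℚ] ℚ :=
  FG κ (ax κ p r) - (16 : ℚ) • (bt (ax κ p r)).smulRight (bt (ax κ p r)) -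
    (2 : ℚ) • bt ∘ₗ (LinearMap.id - rho κ (q κ 0 (ub κ p r)))

theorem Ph_apply (x y : VV) : Ph κ p r x y = FG κ (ax κ p r) x y - 16 * (bt (ax κ p r) x * bt (ax κ p r) y) -
    2 * (bt x y - bt (rho κ (q κ 0 (ub κ p r)) x) y) := by
  simp [Ph]

theorem FG_ax (x y : VV) : FG κ (ax κ p r) x y =
    FG κ (vecMulVec (uv p r) (uv p r), 0, 0) x y - 2 * FG κ (Xw (ub κ p r)) x y := by
  have : (1 / 2 : ℚ) • An (uv p r) (uv p r) = (vecMulVec (uv p r) (uv p r), 0, 0) := by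
    simp only [An, Prod.smul_mk, smul_zero]; congr 1; module
  rw [ax, this]; simp

theorem bt_ax (y : VV) : bt (ax κ p r) y = uv p r ⬝ᵥ y.1 *ᵥ uv p r - 2 * y.2.1 (ub κ p r) := by
  simp only [ax, map_sub, map_smul, LinearMap.sub_apply, LinearMap.smul_apply, bt_An, bt_Xw, smul_eq_mul]
  ring

theorem Ph_An (hp : p ≠ r) (b c : GolayPt → ℚ) (y : VV) : Ph κ p r (An b c) y =
    bt ((16 : ℚ) • ((uv p r ⬝ᵥ b) • An (uv p r) c + (uv p r ⬝ᵥ c) • An (uv p r) b -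
      ((uv p r ⬝ᵥ b) * (uv p r ⬝ᵥ c)) • An (uv p r) (uv p r))) y := by
  rw [Ph_apply, FG_ax, rho_q_An, FG_comm (Xw _), An, FG_AX, FG_AA (transpose_vecMulVec _ _)
    (by rw [transpose_add, transpose_vecMulVec, transpose_vecMulVec, add_comm]), Mv_ub hp]
  simp only [bt_ax, map_smul, map_add, map_sub, LinearMap.smul_apply, LinearMap.add_apply,
    LinearMap.sub_apply, bt_An, Matrix.mul_add, Matrix.add_mul, vecMulVec_mul_vecMulVec, mdot_vec,
    add_mulVec, vecMulVec_mulVec, op_smul_eq_smul, dotProduct_add, dotProduct_smul, smul_eq_mul,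
    mulVec_smul, Pi.zero_apply, dotProduct_comm b (uv p r), dotProduct_comm c (uv p r)]
  ring

theorem Ph_Tn (hp : p ≠ r) (c : GolayPt → ℚ) (s : W12 → ℚ) (y : VV) : Ph κ p r (Tn c s) y =
    bt ((8 * (uv p r ⬝ᵥ c)) • Tn (uv p r) (s + P (ub κ p r) *ᵥ s)) y := by
  rw [Ph_apply, FG_ax, FG_AT (transpose_vecMulVec _ _), FG_XT qf_ub, Mv_ub hp, q, rho_Tn, qh_g, qh_S, gm_one,
    bt_ax (Tn c s)]
  simp only [Tn_add_left, Tn_sub_left, Tn_smul_left, Tn_add_right, map_smul, map_add, map_sub,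
    LinearMap.smul_apply, LinearMap.add_apply, LinearMap.sub_apply, trace_vecMulVec, uv_uv hp,
    smul_mulVec, vecMulVec_mulVec, op_smul_eq_smul, smul_eq_mul, one_mulVec, sg_zero, one_smul]
  simp only [Tn, zero_mulVec, dotProduct_zero, Pi.zero_apply]
  ring

theorem Ph_Xw_aux (hs : Std κ) (hp : p ≠ r) {v : leechLattice} (hv : sqNorm v.1 = 32) {y : VV}
    (hy : y ∈ UU κ) : Ph κ p r (Xw (κ.φ v)) y =
      (((v.1 p - v.1 r : ℤ) : ℚ) ^ 2 - 2 + 2 * sg (om (ub κ p r) (κ.φ v))) * y.2.1 (κ.φ v) -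
        16 * y.2.1 (κ.φ v + ub κ p r) - if ub κ p r = κ.φ v then 64 * y.2.1 (ub κ p r) else 0 := by
  have h1 : qf (κ.φ v) = 0 := by rw [κ.quad, qL_eq_zero, hv]; rfl
  have h2 : om (ub κ p r) (κ.φ v) = 0 ∨ y.2.1 (ub κ p r + κ.φ v) = 0 := by
    by_cases e : IsShort κ (ub κ p r + κ.φ v)
    · exact Or.inl ((om_comm _ _).trans (SU.om hp ⟨⟨v, hv, rfl⟩, add_comm (ub κ p r) _ ▸ e⟩))
    · exact Or.inr (hy.2 _ e)
  rw [Ph_apply, FG_ax, FG_AX, FG_XX qf_ub h1 h2, bet_ub hs, Mv_φ hv, Mv_ub hp, rho_q_Xw, bt_ax (Xw _),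
    add_comm (ub κ p r)]
  simp only [map_smul, LinearMap.smul_apply, bt_Xw, mdot_vec, vecMulVec_mulVec, op_smul_eq_smul,
    dotProduct_smul, smul_eq_mul, dotProduct_comm (ratv v), uv_dot (ratv v), bt_ax, sg_zero]
  simp only [Xw, zero_mulVec, dotProduct_zero, Pi.single_apply, ratv]
  push_cast
  split_ifs <;> ring

theorem Ph_Xw_SU (hs : Std κ) (hp : p ≠ r) {w : V24} (hw : SU κ p r w) {y : VV} (hy : y ∈ UU κ) :
    Ph κ p r (Xw w) y = bt ((16 : ℚ) • Xd κ p r w) y := by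
  have h0 := hw.om hp
  have h1 : ub κ p r ≠ w := fun e => short_ne_zero hw.2 (by rw [e, ww_add_self])
  obtain ⟨v, hv, rfl, e⟩ := hw.exists_rep hp
  rw [Ph_Xw_aux hs hp hv hy, e, om_comm, h0, if_neg h1, Xd]
  simp only [map_smul, map_sub, LinearMap.smul_apply, LinearMap.sub_apply, bt_Xw, sg_zero, smul_eq_mul]
  push_cast; ring

theorem Ph_Xw (hs : Std κ) (hp : p ≠ r) {w : V24} (hw : IsShort κ w) (h : ¬ SU κ p r w) {y : VV}
    (hy : y ∈ UU κ) : Ph κ p r (Xw w) y = 0 := by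
  have h1 : y.2.1 (w + ub κ p r) = 0 := hy.2 _ fun e => h ⟨hw, e⟩
  obtain ⟨v, hv, rfl⟩ := hw
  have h2 : ∀ k : ℤ, v.1 p - v.1 r = k → om (ub κ p r) (κ.φ v) = ((4 * k / 8 : ℤ) : ZMod 2) := fun k e => by
    rw [← φ_ub, κ.om_φ, ipL, dot_dl, e]
  have h3 : v.1 p - v.1 r ≠ 8 → v.1 p - v.1 r ≠ -8 → ub κ p r ≠ κ.φ v := fun a b e => by
    rw [← φ_ub] at e
    rcases (κ.φ_eq_iff.1 e).short (by rw [sqNorm_dlL hp]; norm_num) (by omega) with e | e | e
    · exact a (by simp [e, dlL_apply, hp, hp.symm])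
    · exact b (by simp [e, dlL_apply, hp, hp.symm])
    · omega
  have d1 := dot_cases (sqNorm_dlL hp) hv
  rw [Ph_Xw_aux hs hp hv hy, h1]
  rw [dot_dl] at d1
  rcases d1 with rfl | rfl | e | e | e | e | e
  · simp [φ_ub, om_self, dlL_apply, hp, hp.symm]; ring
  · simp [κ.φ_neg, φ_ub, om_self, dlL_apply, hp, hp.symm]; ring
  · exact absurd (κ.φ_neg v ▸ su_of_rep hp (v := -v) (by rw [AddSubgroup.coe_neg, sqNorm_neg, hv])
      (by simp only [AddSubgroup.coe_neg, Pi.neg_apply]; omega)) h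
  · rw [if_neg (h3 (by omega) (by omega)), h2 (-2) (by omega), show v.1 p - v.1 r = -2 by omega,
      show ((4 * -2 / 8 : ℤ) : ZMod 2) = 1 by decide]
    simp; norm_num
  · rw [if_neg (h3 (by omega) (by omega)), h2 0 (by omega), show v.1 p - v.1 r = 0 by omega]
    simp
  · rw [if_neg (h3 (by omega) (by omega)), h2 2 (by omega), show v.1 p - v.1 r = 2 by omega,
      show ((4 * 2 / 8 : ℤ) : ZMod 2) = 1 by decide]
    simp; norm_num
  · exact absurd (su_of_rep hp hv (by omega)) h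

theorem PP_ub (s : W12 → ℚ) : P (ub κ p r) *ᵥ (P (ub κ p r) *ᵥ s) = s := by
  rw [mulVec_mulVec, P_mul_self, qf_ub, sg_zero, one_smul, one_mulVec]

theorem exists_Ph (hs : Std κ) (hp : p ≠ r) {x : VV} (hx : x ∈ UU κ) :
    ∃ u ∈ UB κ p r, ∀ y ∈ UU κ, Ph κ p r x y = bt u y := by
  let S : Submodule ℚ VV := ((UB κ p r).map (bt.compl₂ (UU κ).subtype)).comap
    ((Ph κ p r).compl₂ (UU κ).subtype)
  have hS : ∀ x, x ∈ S ↔ ∃ u ∈ UB κ p r, ∀ y ∈ UU κ, Ph κ p r x y = bt u y := fun x =>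
    ⟨fun ⟨u, a, b⟩ => ⟨u, a, fun y hy => (LinearMap.congr_fun b ⟨y, hy⟩).symm⟩,
      fun ⟨u, a, b⟩ => ⟨u, a, LinearMap.ext fun y => (b y.1 y.2).symm⟩⟩
  refine (hS x).1 (UU_le (fun i j => (hS _).2 ⟨_, ?_, fun y _ => Ph_An hp _ _ y⟩) (fun w hw => (hS _).2 ?_)
    (fun i k => (hS _).2 ⟨_, ?_, fun y _ => Ph_Tn hp _ _ y⟩) hx)
  · have key : ∀ b : GolayPt → ℚ, An (uv p r) b - ((uv p r ⬝ᵥ b) / 2) • An (uv p r) (uv p r) ∈ UB κ p r :=
      fun b => by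
        rw [← An_smul_right, ← An_sub_right]
        refine An_mem_UB (sub_eq_zero.1 ?_)
        rw [← uv_dot, dotProduct_sub, dotProduct_smul, uv_uv hp, smul_eq_mul]; ring
    refine Submodule.smul_mem _ _ ?_
    convert add_mem (Submodule.smul_mem _ (uv p r ⬝ᵥ ep i) (key (ep j)))
      (Submodule.smul_mem _ (uv p r ⬝ᵥ ep j) (key (ep i))) using 1
    module
  · by_cases h : SU κ p r w
    · exact ⟨_, Submodule.smul_mem _ _ (Xd_mem_UB h), fun y hy => Ph_Xw_SU hs hp h hy⟩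
    · exact ⟨0, zero_mem _, fun y hy => by rw [Ph_Xw hs hp hw h hy, map_zero, LinearMap.zero_apply]⟩
  · exact Submodule.smul_mem _ _ (Tn_mem_UB (by rw [mulVec_add, PP_ub, add_comm]))

theorem Ph_UB (hs : Std κ) (hp : p ≠ r) {x y : VV} (hx : x ∈ UB κ p r) (hy : y ∈ UU κ) :
    Ph κ p r x y = 32 * bt x y := by
  refine UB_le (q := LinearMap.eqLocus ((Ph κ p r).flip y) ((32 : ℚ) • bt.flip y)) (fun h e => ?_)
    (fun w e => ?_) (fun s e => ?_) hx <;>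
    rw [LinearMap.mem_eqLocus, LinearMap.smul_apply, LinearMap.flip_apply, LinearMap.flip_apply]
  · rw [Ph_An hp, uv_uv hp, uv_dot h, e, sub_self]
    simp; ring
  · rw [Xd, map_sub, LinearMap.sub_apply, Ph_Xw_SU hs hp e hy, Ph_Xw_SU hs hp e.add hy, Xd_add, ← Xd]
    simp; ring
  · rw [Ph_Tn hp, uv_uv hp, e, Tn_add_right]
    simp; ring

theorem Ph_comm (x y : VV) : Ph κ p r x y = Ph κ p r y x := by
  have : bt (rho κ (q κ 0 (ub κ p r)) x) y = bt (rho κ (q κ 0 (ub κ p r)) y) x := by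
    rw [← bt_rho (q κ 0 (ub κ p r)), ← Module.End.mul_apply, ← map_mul, q_mul_self, qf_ub, q_zero, map_one,
      Module.End.one_apply, bt_comm]
  rw [Ph_apply, Ph_apply, FG_comm', this, bt_comm x y, mul_comm (bt _ x)]

theorem FG_ax_tau (hs : Std κ) (hp : p ≠ r)
    (hb : ∀ x ∈ UU κ, ∀ y ∈ UU κ, bt (tau κ x) (tau κ y) = bt x y) {x y : VV} (hx : x ∈ UU κ)
    (hy : y ∈ UU κ) : FG κ (ax κ p r) (tau κ x) (tau κ y) = FG κ (ax κ p r) x y := by
  have h1 : Ph κ p r (tau κ x) (tau κ y) = Ph κ p r x y := by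
    obtain ⟨u, a, b⟩ := exists_Ph hs hp hx
    obtain ⟨u', a', b'⟩ := exists_Ph hs hp (hs.tau_mem hx)
    have key : ∀ z ∈ UB κ p r, bt (u' - tau κ u) z = 0 := fun z hz => by
      have c := tau_mem_UB hs hp (tau_mem_UB hs hp hz)
      have c' := UB_le_UU c
      have d := hs.tau_cube (UB_le_UU hz)
      rw [map_sub, LinearMap.sub_apply, ← b' z (UB_le_UU hz), Ph_comm, Ph_UB hs hp hz (hs.tau_mem hx), ← d,
        hb _ c' _ hx, hb _ (UB_le_UU a) _ c', ← b _ c', Ph_comm, Ph_UB hs hp c hx, sub_self]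
    rw [b' _ (hs.tau_mem hy), b y hy, sub_eq_zero.1 (bt_eq_zero (key _ (sub_mem a' (tau_mem_UB hs hp a)))),
      hb _ (UB_le_UU a) _ hy]
  have h2 : ∀ z ∈ UU κ, bt (ax κ p r) (tau κ z) = bt (ax κ p r) z := fun z hz => by
    rw [← hb _ (ax_mem hp) z hz, tau_ax hp]
  have h3 : rho κ (q κ 0 (ub κ p r)) (tau κ x) = tau κ (rho κ (q κ 0 (ub κ p r)) x) := by
    have := hs.rel_E (hs.isE_xI_mul p r) hx
    rwa [hs.xI_mul] at this
  rw [Ph_apply, Ph_apply, h2 x hx, h2 y hy, h3, hb x hx y hy, hb _ (rho_mem _ hx) y hy] at h1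
  linarith

end CfsgLib.MonRep
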