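import Mathlib
import Cfsg.Agent.Lib.MonRep.Gr2
import Cfsg.Agent.Lib.Mon.MM

/-!
The cubic form of the Griess algebra is invariant under `tau`.
-/

set_option autoImplicit false

namespace CfsgLib.MonRep

open Cfsg CfsgLib.Leech CfsgLib.MType CfsgLib.Mon Matrix Finset Module

section abs
variable {Γ V : Type*} [Group Γ] [AddCommGroup V] [Module ℚ V]

/-- pull back of a trilinear form -/
def pull3 {W : Type*} [AddCommGroup W] [Module ℚ W] (G : V →ₗ[ℚ] V →ₗ[ℚ] V →ₗ[ℚ] ℚ) (g : W →ₗ[ℚ] V) :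
    W →ₗ[ℚ] W →ₗ[ℚ] W →ₗ[ℚ] ℚ := (G.compl₁₂ g g).compr₂ (LinearMap.lcomp ℚ ℚ g)

theorem pull3_apply {W : Type*} [AddCommGroup W] [Module ℚ W] (G : V →ₗ[ℚ] V →ₗ[ℚ] V →ₗ[ℚ] ℚ)
    (g : W →ₗ[ℚ] V) (x y w : W) : pull3 G g x y w = G (g x) (g y) (g w) := rfl

theorem tri_ex {ι : Type} [Finite ι] {G : V →ₗ[ℚ] V →ₗ[ℚ] V →ₗ[ℚ] ℚ} {f : ι → End ℚ V} {W : Submodule ℚ V}
    (h : CI f W) (h0 : ∀ χ ψ φ, ∀ x ∈ W, ∀ y ∈ W, ∀ w ∈ W, x ∈ ex f χ → y ∈ ex f ψ → w ∈ ex f φ → G x y w = 0)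
    {x y w : V} (hx : x ∈ W) (hy : y ∈ W) (hw : w ∈ W) : G x y w = 0 :=
  h.le (P := LinearMap.ker ((G.flip y).flip w)) (fun χ x hx ex =>
    h.le (P := LinearMap.ker ((G x).flip w)) (fun ψ y hy ey =>
      h.le (P := LinearMap.ker (G x y)) (fun φ w hw ew => h0 χ ψ φ x hx y hy w hw ex ey ew) hw) hy) hx

theorem tri_sign {G : V →ₗ[ℚ] V →ₗ[ℚ] V →ₗ[ℚ] ℚ} {s : End ℚ V} (h : ∀ x y w, G (s x) (s y) (s w) = G x y w)
    {x y w : V} {a b c : ZMod 2} (h1 : s x = sF ℚ a • x) (h2 : s y = sF ℚ b • y) (h3 : s w = sF ℚ c • w)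
    (e : a + b + c = 1) : G x y w = 0 := by
  have := h x y w
  simp only [h1, h2, h3, map_smul, LinearMap.smul_apply, smul_smul, ← sF_add] at this
  rw [show c + (b + a) = 1 by rw [← e]; ring, sF_one, smul_eq_mul] at this
  linarith

theorem tri_half {G : V →ₗ[ℚ] V →ₗ[ℚ] V →ₗ[ℚ] ℚ} (s1 : ∀ x y w, G x y w = G y x w)
    (s2 : ∀ x y w, G x y w = G x w y) {s c : End ℚ V} (hs : ∀ x, s (s x) = x) (hc : ∀ x, c (s x) = s (c x))
    (h : ∀ x y w, G (s x) (s y) (s w) = G x y w) (h0 : ∀ x, s x = x → c x = x → ∀ y w, G x y w = 0)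
    {x y w : V} (hx : c x = x) (hy : c y = y) (hw : c w = w) : G x y w = 0 := by
  refine tri_ex (f := fun _ : Unit => s) (W := LinearMap.eqLocus c LinearMap.id)
    ⟨fun _ v hv => (hc v).trans (congrArg s hv), fun _ v _ => hs v, fun _ _ _ _ => rfl⟩
    (fun χ ψ φ x hx y hy w hw ex ey ew => ?_) hx hy hw
  have e1 := ex ()
  have e2 := ey ()
  have e3 := ew ()
  rcases z2_cases (χ ()) with a | a
  · exact h0 x (by simpa [a] using e1) hx y w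
  rcases z2_cases (ψ ()) with b | b
  · exact s1 x y w ▸ h0 y (by simpa [b] using e2) hy x w
  rcases z2_cases (φ ()) with d | d
  · rw [s2, s1]; exact h0 w (by simpa [d] using e3) hw x y
  exact tri_sign h e1 e2 e3 (by rw [a, b, d]; rfl)

theorem tri_vanish (ρ : Representation ℚ Γ V) {G : V →ₗ[ℚ] V →ₗ[ℚ] V →ₗ[ℚ] ℚ}
    (s1 : ∀ x y w, G x y w = G y x w) (s2 : ∀ x y w, G x y w = G x w y) {σ a b c : Γ} (hσ : σ ^ 3 = 1)
    (hsum : ∀ x y w, G x y w + G (ρ σ x) (ρ σ y) (ρ σ w) +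
      G (ρ (σ * σ) x) (ρ (σ * σ) y) (ρ (σ * σ) w) = 0)
    (ha : a * a = 1) (hb : σ * b = a * σ) (hc : σ * a = c * σ) (hab : a * b = b * a) {N : Subgroup Γ}
    (hN : ∀ n ∈ N, ∀ x y w, G (ρ n x) (ρ n y) (ρ n w) = G x y w) (a0 : a ∈ N) (b0 : b ∈ N) (c0 : c ∈ N)
    (hj : ∀ e, e = a ∨ e = b ∨ e = a * b → ∃ n ∈ N, n * c = c * e * n)
    (hR : ∀ x, ρ a x = x → ρ b x = x → ∀ y w, G x y w = 0) (x y w : V) : G x y w = 0 := by
  have m : ∀ g h x, ρ g (ρ h x) = ρ (g * h) x := fun g h x => by rw [map_mul]; rfl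
  have j1 : MulAut.conj σ b = a := mul_inv_eq_iff_eq_mul.2 hb
  have j2 : MulAut.conj σ a = c := mul_inv_eq_iff_eq_mul.2 hc
  have j3 : MulAut.conj σ c = b := by
    rw [← j2, ← j1, ← MulAut.mul_apply, ← MulAut.mul_apply, ← map_mul, ← map_mul, ← pow_three', hσ, map_one,
      MulAut.one_apply]
  have i2 : σ * c = b * σ := mul_inv_eq_iff_eq_mul.1 j3
  have ac : c * a = a * c := by simpa only [map_mul, j1, j2] using congrArg (MulAut.conj σ) hab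
  have bc : c * b = b * c := by simpa only [map_mul, j2, j3] using congrArg (MulAut.conj σ) ac.symm
  have cc : c * c = 1 := by simpa only [map_mul, j2, map_one] using congrArg (MulAut.conj σ) ha
  have bb : b * b = 1 := by simpa only [map_mul, j3, map_one] using congrArg (MulAut.conj σ) cc
  have i3 : σ * σ * a = b * (σ * σ) := by rw [mul_assoc, hc, ← mul_assoc, i2, mul_assoc]
  have i4 : σ * σ * c = a * (σ * σ) := by rw [mul_assoc, i2, ← mul_assoc, hb, mul_assoc]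
  have k1 : ∀ x y w, ρ c x = x → ρ c y = y → ρ c w = w → G x y w = 0 := fun x y w hx hy hw => by
    have e1 := tri_half (G := pull3 G (ρ σ)) (fun _ _ _ => s1 _ _ _) (fun _ _ _ => s2 _ _ _) (s := ρ b)
      (c := ρ c) (fun x => by rw [m, bb, map_one]; rfl) (fun x => by rw [m, m, bc])
      (fun x y w => by simp only [pull3_apply, m, hb]; simp only [← m, hN a a0])
      (fun x h1 h2 y w => hR _ (by rw [m, ← hb, ← m, h1]) (by rw [m, ← i2, ← m, h2]) _ _) hx hy hw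
    have e2 := tri_half (G := pull3 G (ρ (σ * σ))) (fun _ _ _ => s1 _ _ _) (fun _ _ _ => s2 _ _ _) (s := ρ a)
      (c := ρ c) (fun x => by rw [m, ha, map_one]; rfl) (fun x => by rw [m, m, ac])
      (fun x y w => by simp only [pull3_apply, m, i3]; simp only [← m b, hN b b0])
      (fun x h1 h2 y w => hR _ (by rw [m, ← i4, ← m, h2]) (by rw [m, ← i3, ← m, h1]) _ _) hx hy hw
    have := hsum x y w
    rw [pull3_apply] at e1 e2
    linarith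
  have k2 : ∀ e, e = a ∨ e = b ∨ e = a * b → ∀ x y w, ρ (c * e) x = x → ρ (c * e) y = y → ρ (c * e) w = w →
      G x y w = 0 := fun e he x y w hx hy hw => by
    obtain ⟨n, h1, h2⟩ := hj e he
    have : ∀ x, ρ (c * e) x = x → ρ c (ρ n⁻¹ x) = ρ n⁻¹ x := fun x hx => by
      conv_rhs => rw [← hx, m, show n⁻¹ * (c * e) = c * n⁻¹ by
        rw [inv_mul_eq_iff_eq_mul, ← mul_assoc, h2, mul_inv_cancel_right], ← m]
    rw [← hN _ (N.inv_mem h1), k1 _ _ _ (this x hx) (this y hy) (this w hw)]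
  refine tri_ex (f := ![ρ a, ρ b, ρ c]) (W := ⊤) ⟨fun _ _ _ => trivial, fun i v _ => ?_, fun i j v _ => ?_⟩
    (fun χ ψ φ x _ y _ w _ ex ey ew => ?_) trivial trivial trivial
  · fin_cases i <;> simp [m, ha, bb, cc]
  · have q : ∀ g h, g * h = h * g → ρ g (ρ h v) = ρ h (ρ g v) := fun g h e => by rw [m, m, e]
    fin_cases i <;> fin_cases j
    exacts [rfl, q _ _ hab, q _ _ ac.symm, q _ _ hab.symm, rfl, q _ _ bc.symm, q _ _ ac, q _ _ bc, rfl]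
  by_cases d0 : χ 0 + ψ 0 + φ 0 = 1
  · exact tri_sign (hN a a0) (ex 0) (ey 0) (ew 0) d0
  by_cases d1 : χ 1 + ψ 1 + φ 1 = 1
  · exact tri_sign (hN b b0) (ex 1) (ey 1) (ew 1) d1
  by_cases d2 : χ 2 + ψ 2 + φ 2 = 1
  · exact tri_sign (hN c c0) (ex 2) (ey 2) (ew 2) d2
  have r : ∀ {χ : Fin 3 → ZMod 2} {x}, x ∈ MonRep.ex ![ρ a, ρ b, ρ c] χ → χ 0 = 0 ∧ χ 1 = 0 → ∀ y w,
      G x y w = 0 := fun ex e => hR _ (by simpa [e.1] using ex 0) (by simpa [e.2] using ex 1)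
  by_cases e0 : χ 0 = 0 ∧ χ 1 = 0
  · exact r ex e0 y w
  by_cases e1 : ψ 0 = 0 ∧ ψ 1 = 0
  · exact s1 x y w ▸ r ey e1 x w
  by_cases e2 : φ 0 = 0 ∧ φ 1 = 0
  · rw [s2, s1]; exact r ew e2 x y
  have t : ∀ {χ : Fin 3 → ZMod 2} {x}, x ∈ MonRep.ex ![ρ a, ρ b, ρ c] χ → (χ 2 = 0 → ρ c x = x) ∧
      (χ 2 = χ 0 → ρ (c * a) x = x) ∧ (χ 2 = χ 1 → ρ (c * b) x = x) ∧
      (χ 2 = χ 0 + χ 1 → ρ (c * (a * b)) x = x) := fun {χ x} ex => by
    have f0 : ρ a x = _ := ex 0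
    have f1 : ρ b x = _ := ex 1
    have f2 : ρ c x = _ := ex 2
    refine ⟨fun e => ?_, fun e => ?_, fun e => ?_, fun e => ?_⟩ <;>
      simp only [← m, f0, f1, f2, e, map_smul, sF_zero, one_smul, smul_smul, ← sF_add, z2_add_self]
    rw [add_comm (χ 1), z2_add_self, sF_zero, one_smul]
  have : (χ 2 = 0 ∧ ψ 2 = 0 ∧ φ 2 = 0) ∨ (χ 2 = χ 0 ∧ ψ 2 = ψ 0 ∧ φ 2 = φ 0) ∨
      (χ 2 = χ 1 ∧ ψ 2 = ψ 1 ∧ φ 2 = φ 1) ∨ (χ 2 = χ 0 + χ 1 ∧ ψ 2 = ψ 0 + ψ 1 ∧ φ 2 = φ 0 + φ 1) := by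
    revert d0 d1 d2 e0 e1 e2
    generalize χ 0 = a0; generalize χ 1 = a1; generalize χ 2 = a2
    generalize ψ 0 = b0; generalize ψ 1 = b1; generalize ψ 2 = b2
    generalize φ 0 = c0; generalize φ 1 = c1; generalize φ 2 = c2
    intro d0 d1 d2
    obtain rfl : c0 = a0 + b0 := by revert d0; revert a0 b0 c0; decide
    obtain rfl : c1 = a1 + b1 := by revert d1; revert a1 b1 c1; decide
    obtain rfl : c2 = a2 + b2 := by revert d2; revert a2 b2 c2; decide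
    clear d0 d1 d2
    revert a0 a1 a2 b0 b1 b2
    decide
  rcases this with ⟨u, v, z⟩ | ⟨u, v, z⟩ | ⟨u, v, z⟩ | ⟨u, v, z⟩
  · exact k1 _ _ _ ((t ex).1 u) ((t ey).1 v) ((t ew).1 z)
  · exact k2 _ (Or.inl rfl) _ _ _ ((t ex).2.1 u) ((t ey).2.1 v) ((t ew).2.1 z)
  · exact k2 _ (Or.inr (Or.inl rfl)) _ _ _ ((t ex).2.2.1 u) ((t ey).2.2.1 v) ((t ew).2.2.1 z)
  · exact k2 _ (Or.inr (Or.inr rfl)) _ _ _ ((t ex).2.2.2 u) ((t ey).2.2.2 v) ((t ew).2.2.2 z)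

end abs

end CfsgLib.MonRep
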