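import Mathlib
import Cfsg.Agent.Lib.MonRep.Gr3
import Cfsg.Agent.Lib.MonRep.BC

/-!
Invariance of the Griess algebra; the Norton pair.
-/

set_option autoImplicit false

namespace CfsgLib.MonRep

open Cfsg CfsgLib.Leech CfsgLib.MType CfsgLib.Mon Matrix Finset Module

variable {κ : Coord}

/-- the defect of invariance -/
noncomputable def GG (κ : Coord) : T3 := pull3 (FG κ) (tau κ) - FG κ

theorem GG_apply (x y w : VV) : GG κ x y w = FG κ (tau κ x) (tau κ y) (tau κ w) - FG κ x y w := rfl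

theorem GG_inv (hs : Std κ) {n : C κ} (hn : n ∈ Nxyz κ) : InvBy κ (GG κ) (rho κ n) := by
  obtain ⟨m, e⟩ := hs.exists_gam' hn
  have h : ∀ u ∈ UU κ, tau κ (rho κ n u) = rho κ m (tau κ u) := fun u hu =>
    (congrArg (fun g : GU κ => (g.1 ⟨u, hu⟩).1) (hs.gam_V e)).symm
  intro x hx y hy w hw
  rw [GG_apply, GG_apply, h x hx, h y hy, h w hw, FG_rho n x hx y hy w hw,
    FG_rho m _ (hs.tau_mem hx) _ (hs.tau_mem hy) _ (hs.tau_mem hw)]

/-- the radical of a trilinear form on `UU` -/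
def rad3 (κ : Coord) (F : T3) : Submodule ℚ VV := ⨅ y : UU κ, radU κ (F.flip y)

theorem mem_rad3 {F : T3} {x : VV} : x ∈ rad3 κ F ↔ ∀ y ∈ UU κ, ∀ w ∈ UU κ, F x y w = 0 := by
  simp only [rad3, Submodule.mem_iInf, mem_radU, Subtype.forall]; rfl

theorem rad_N (hs : Std κ) {n : C κ} (hn : n ∈ Nxyz κ) {x : VV} (hx : x ∈ UU κ) (h : x ∈ rad3 κ (GG κ)) :
    rho κ n x ∈ rad3 κ (GG κ) := mem_rad3.2 fun y hy w hw => by
  rw [← rho_rho_inv n y, ← rho_rho_inv n w, GG_inv hs hn x hx _ (rho_mem _ hy) _ (rho_mem _ hw),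
    mem_rad3.1 h _ (rho_mem _ hy) _ (rho_mem _ hw)]

theorem rad_sep (hs : Std κ) {n : C κ} (hn : n ∈ Nxyz κ) {x y : VV} (hx : x + y ∈ UU κ)
    (h : x + y ∈ rad3 κ (GG κ)) {s : ZMod 2} (h1 : rho κ n x = Mon.sg s • x) (h2 : rho κ n y = Mon.sg (s + 1) • y) :
    x ∈ rad3 κ (GG κ) ∧ y ∈ rad3 κ (GG κ) := by
  have h3 := rad_N hs hn hx h
  rw [map_add, h1, h2, sg_add_one, neg_smul, ← smul_neg, ← smul_add,
    Submodule.smul_mem_iff _ (sg_ne_zero _)] at h3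
  have h4 : x ∈ rad3 κ (GG κ) := by
    rw [← Submodule.smul_mem_iff _ (two_ne_zero' ℚ)]
    convert add_mem h h3 using 1
    module
  exact ⟨h4, (add_mem_cancel_left h4).1 h⟩

theorem exists_mono {v w : leechLattice} (hv : sqNorm v.1 = 32) (hw : sqNorm w.1 = 32)
    (h : shape v.1 = shape w.1) : ∃ x : Chat κ, mk κ x ∈ Nxyz κ ∧ x.g • v = w := by
  obtain ⟨i, hi⟩ := partN.2.2 v hv
  obtain ⟨b, hb, rfl⟩ := (partN.2.1 i w).2 ⟨hw, h ▸ ((partN.2.1 i v).1 hi).2⟩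
  obtain ⟨a, ha, rfl⟩ := hi
  obtain ⟨x, h1, h2⟩ := mem_img.1 (img_Nxyz (κ := κ) ▸ mul_mem hb (inv_mem ha))
  exact ⟨x, h1, by rw [h2, mul_smul, inv_smul_smul]⟩

theorem shape_four {v : leechLattice} (h : ∀ i, v.1 i % 4 = 0) : shape v.1 = 2 := if_pos h

theorem rad_four (hs : Std κ) (hb : ∀ x ∈ UU κ, ∀ y ∈ UU κ, bt (tau κ x) (tau κ y) = bt x y)
    {v : leechLattice} (hv : sqNorm v.1 = 32) (h : shape v.1 = 2) :
    Sq v ∈ rad3 κ (GG κ) ∧ Xw (κ.φ v) ∈ rad3 κ (GG κ) := by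
  have hp : (none : GolayPt) ≠ some 0 := by decide
  have h1 : ax κ none (some 0) ∈ rad3 κ (GG κ) := mem_rad3.2 fun y hy w hw => by
    rw [GG_apply, tau_ax hp, FG_ax_tau hs hp hb hy hw, sub_self]
  obtain ⟨d, hd, a, b⟩ := exists_sep hp
  have h2 := ax_mem (κ := κ) hp
  rw [ax, sub_eq_add_neg] at h1 h2
  obtain ⟨h3, h4⟩ := rad_sep hs (xq_mem_Nxyz 0 d) h2 h1 (s := 0) (by rw [map_smul, xq, rho_qh_An]; simp)
    (by simp [xq, rho_qh_Xw, ub, om_add_right, om_xv_lam hd, a, b])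
  rw [neg_mem_iff, Submodule.smul_mem_iff _ two_ne_zero] at h4
  rw [Submodule.smul_mem_iff _ (by norm_num)] at h3
  obtain ⟨x, h5, rfl⟩ := exists_mono (κ := κ) (sqNorm_dlL hp) hv
    ((shape_four fun i => by rw [dlL_apply]; split_ifs <;> rfl).trans h.symm)
  have h6 := rad_N hs h5 (Xw_mem (isShort_ub hp)) h4
  rw [rho_Xw, Submodule.smul_mem_iff _ (sg_ne_zero _), ← φ_ub, κ.act_φ] at h6
  refine ⟨rho_Sq x _ ▸ rad_N hs h5 (An_mem _ _) ?_, h6⟩
  rw [Sq, ratv_dlL, An_smul_left, An_smul_right]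
  exact Submodule.smul_mem _ _ (Submodule.smul_mem _ _ h3)

theorem rad_pair (hs : Std κ) (hb : ∀ x ∈ UU κ, ∀ y ∈ UU κ, bt (tau κ x) (tau κ y) = bt x y)
    {i j : GolayPt} (e : i ≠ j) : An (ep i) (ep j) ∈ rad3 κ (GG κ) ∧
      An (ep i) (ep i) + An (ep j) (ep j) ∈ rad3 κ (GG κ) ∧ Up κ i j ∈ rad3 κ (GG κ) := by
  obtain ⟨a, b⟩ := rad_four hs hb (sqNorm_dlL e) (shape_four fun i => by rw [dlL_apply]; split_ifs <;> rfl)
  obtain ⟨c, d⟩ := rad_four hs hb (sqNorm_dpL e) (shape_four fun i => by rw [dpL_apply]; split_ifs <;> rfl)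
  rw [φ_dlL] at b
  rw [φ_dpL] at d
  rw [Sq_dlL] at a
  rw [Sq_dpL] at c
  refine ⟨?_, ?_, sub_mem b d⟩
  · convert Submodule.smul_mem _ (1 / 64 : ℚ) (sub_mem c a) using 1; module
  · convert Submodule.smul_mem _ (1 / 32 : ℚ) (add_mem c a) using 1; module

theorem rad_D (hs : Std κ) (hb : ∀ x ∈ UU κ, ∀ y ∈ UU κ, bt (tau κ x) (tau κ y) = bt x y) (i : GolayPt) :
    An (ep i) (ep i) ∈ rad3 κ (GG κ) := by
  obtain ⟨k, l, a, b, -, c, -⟩ := exists_two i i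
  convert Submodule.smul_mem _ (1 / 2 : ℚ) (sub_mem (add_mem (rad_pair hs hb b).2.1 (rad_pair hs hb c).2.1)
    (rad_pair hs hb a).2.1) using 1
  module

theorem gT_e8 : sgnAut (Golay.ofMask 4845570) (isCW_ofMask (by decide +kernel)) • gT • e8 none =
    gT • e8 none + e8 (some 1) := Subtype.ext (by
  rw [coe_sgnAut_smul, AddSubgroup.coe_add, coe_gT_smul, funext_iff]; decide +kernel)

theorem FG_tau (hV : MAm (piV k0) std_k0.tauV)
    (hb : ∀ x ∈ UU k0, ∀ y ∈ UU k0, bt (tau k0 x) (tau k0 y) = bt x y) : InvBy k0 (FG k0) (tau k0) := by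
  have hs := std_k0
  let ρ : Representation ℚ (GU k0) (UU k0) := repOf (MonoidHom.id _)
  let σ : GU k0 := piV k0 cT * hs.tauV
  let G := pull3 (GG k0) (UU k0).subtype
  have hσ : σ ^ 3 = 1 := by
    have := hV.tri
    rw [show std_k0.tauV * piV k0 cT = (piV k0 cT)⁻¹ * σ * (piV k0 cT)⁻¹⁻¹ by
      rw [inv_inv, ← mul_assoc, inv_mul_cancel, one_mul], conj_pow, mul_inv_eq_one, inv_mul_eq_iff_eq_mul,
      mul_inv_cancel] at this
    exact this
  have m : ∀ g h x, ρ g (ρ h x) = ρ (g * h) x := fun g h x => by rw [map_mul]; rfl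
  have hG : ∀ x y w, G x y w = FG k0 (ρ σ x).1 (ρ σ y).1 (ρ σ w).1 - FG k0 x.1 y.1 w.1 := fun x y w =>
    congrArg (· - _) (FG_rho cT _ (hs.tau_mem x.2) _ (hs.tau_mem y.2) _ (hs.tau_mem w.2)).symm
  have hsum : ∀ x y w, G x y w + G (ρ σ x) (ρ σ y) (ρ σ w) +
      G (ρ (σ * σ) x) (ρ (σ * σ) y) (ρ (σ * σ) w) = 0 := fun x y w => by
    simp only [hG, m, ← pow_three, hσ, map_one, Module.End.one_apply]
    ring
  have hA : ∀ i j, An (ep i) (ep j) ∈ rad3 k0 (GG k0) := fun i j => by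
    by_cases e : i = j
    exacts [e ▸ rad_D hs hb i, (rad_pair hs hb e).1]
  have hA' : ∀ a b, tau k0 (tau k0 (An a b)) ∈ rad3 k0 (GG k0) :=
    An_mem_of_ep (p := (rad3 k0 (GG k0)).comap (tau k0 ∘ₗ tau k0)) fun i j => by
      rw [Submodule.mem_comap, LinearMap.comp_apply]
      by_cases e : i = j
      · rw [e, tau_D, tau_D]; exact hA j j
      · rw [tau_A e, tau_Um e]; exact (rad_pair hs hb e).2.2
  have hO : Xw (k0.φ (gT • dlL none (some 3))) ∈ rad3 k0 (GG k0) := by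
    have e : (none : GolayPt) ≠ some 3 := by decide
    have i1 : σ * σ = hs.tauV * hs.tauV * piV k0 cT⁻¹ := by
      rw [← hV.tau_inv, map_inv, ← _root_.mul_inv_rev, eq_inv_iff_mul_eq_one, ← pow_three', hσ]
    have h1 : (ρ σ ⟨_, An_mem (ep none) (ep (some 3))⟩).1 ∈ rad3 k0 (GG k0) := mem_rad3.2 fun y hy w hw => by
      have h2 := hsum ⟨_, An_mem (ep none) (ep (some 3))⟩ (ρ σ⁻¹ ⟨y, hy⟩) (ρ σ⁻¹ ⟨w, hw⟩)
      have h3 := hA' (gm cH⁻¹.g *ᵥ ep none) (gm cH⁻¹.g *ᵥ ep (some 3))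
      rw [← rho_An, map_inv] at h3
      have h4 : ∀ y w, G ⟨_, An_mem (ep none) (ep (some 3))⟩ y w = 0 := fun y w =>
        mem_rad3.1 (hA _ _) _ y.2 _ w.2
      have h5 : ∀ y w, G (ρ (σ * σ) ⟨_, An_mem (ep none) (ep (some 3))⟩) y w = 0 := fun y w => by
        rw [i1]; exact mem_rad3.1 h3 _ y.2 _ w.2
      rwa [ρ.self_inv_apply, ρ.self_inv_apply, h4, h5, zero_add, add_zero] at h2
    have h2 : (ρ σ ⟨_, An_mem (ep none) (ep (some 3))⟩).1 = rho k0 cT (tau k0 (An (ep none) (ep (some 3)))) :=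
      rfl
    have h3 := (ρ σ ⟨_, An_mem (ep none) (ep (some 3))⟩).2
    rw [h2, tau_A e, Um, map_add, rho_Xw', rho_Xw', map_add _ _ (w0 k0)] at h1 h3
    obtain ⟨n, n1, n2⟩ := exists_om_two (u := w0 k0) (v := cact cT (w0 k0)) w0_ne_zero
      (fun a => w0_ne_zero (cact_injective cT (a.trans (map_zero _).symm)))
      (fun a => cT_notMem_Nx0 (by
        rw [← add_right_inj (w0 k0), a, ww_add_self] : cact cT (w0 k0) = w0 k0)) 0 1
    have h4 := (rad_sep hs (q_mem_Nxyz.2 n1 : q k0 0 n ∈ _) h3 h1 (s := om n (cact cT (lam k0 none + lam k0 (some 3))))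
      (by rw [map_smul, rho_q_Xw, smul_comm]) (by rw [map_smul, rho_q_Xw, om_add_right, n2, smul_comm])).1
    rwa [Submodule.smul_mem_iff _ (sg_ne_zero _), ← φ_dlL, cT, cact_mk, cH_g, k0.act_φ] at h4
  have hX : ∀ w, IsShort k0 w → om (w0 k0) w = 0 → Xw w ∈ rad3 k0 (GG k0) := by
    rintro _ ⟨v, hv, rfl⟩ e
    by_cases a : ∀ i, v.1 i % 4 = 0
    · exact (rad_four hs hb hv (shape_four a)).2
    obtain ⟨x, h1, rfl⟩ := exists_mono (κ := k0) (v := gT • dlL none (some 3))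
      (by rw [sqNorm_smul, sqNorm_dlL (by decide)]) hv (by
        rw [shape, shape, if_neg a, om_w0_eq_zero.1 ((om_comm _ _).trans e) none, coe_gT_smul]
        decide +kernel)
    have := rad_N hs h1 (Xw_mem ⟨_, by rw [sqNorm_smul, sqNorm_dlL (by decide)], rfl⟩) hO
    rwa [rho_Xw, Submodule.smul_mem_iff _ (sg_ne_zero _), k0.act_φ] at this
  have hc : cT * q k0 0 (w0 k0) * cT⁻¹ = q k0 (cε cT (w0 k0)) (cact cT (w0 k0)) := by rw [conj_q, zero_add]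
  have hω : om (cact cT (w0 k0)) (w0 k0) = 0 := by rw [cT, cact_mk, cH_g, w0_k0, act_gT_Z]; decide
  have hω0 : cact cT (w0 k0) ≠ 0 := fun a => w0_ne_zero (cact_injective cT (a.trans (map_zero _).symm))
  have hω1 : w0 k0 + cact cT (w0 k0) ≠ 0 := fun a => cT_notMem_Nx0 (by
    rw [← add_right_inj (w0 k0), a, ww_add_self] : cact cT (w0 k0) = w0 k0)
  have key := tri_vanish ρ (G := G) (fun x y w => by simp only [hG, FG_comm x.1, FG_comm (ρ σ x).1])
    (fun x y w => by simp only [hG, FG_comm' _ y.1, FG_comm' _ (ρ σ y).1]) hσ hsum (a := piV k0 (z k0))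
    (b := piV k0 (q k0 1 (w0 k0))) (c := piV k0 (q k0 (cε cT (w0 k0)) (cact cT (w0 k0))))
    (by rw [← map_mul, z_mul_self, map_one])
    (by rw [mul_assoc, ← hV.gam _ _ hs.gam_z, ← mul_assoc, ← map_mul, z_comm, map_mul, mul_assoc])
    (by rw [mul_assoc, ← hV.gam _ _ hs.gam_z'', ← hc, ← mul_assoc, ← mul_assoc, ← map_mul, ← map_mul,
      inv_mul_cancel_right])
    (by rw [← map_mul, ← z_comm, map_mul]) (N := (Nxyz k0).map (piV k0))
    (by rintro _ ⟨n, hn, rfl⟩ x y w; exact GG_inv hs hn _ x.2 _ y.2 _ w.2)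
    ⟨_, q_mem_Nxyz.2 (om_zero_left _), rfl⟩ ⟨_, q_mem_Nxyz.2 (om_self _), rfl⟩ ⟨_, q_mem_Nxyz.2 hω, rfl⟩
    (fun e he => ?_) fun x h1 h2 y w => ?_
  · exact fun x hx y hy w hw => sub_eq_zero.1 (key ⟨x, hx⟩ ⟨y, hy⟩ ⟨w, hw⟩)
  · obtain ⟨y, hy⟩ := hs.exists_Y 0 (isCW_ofMask (m := 4845570) (by decide +kernel))
    have h1 : cact (mk k0 y) (cact cT (w0 k0)) = cact cT (w0 k0) + w0 k0 := by
      rw [cT, cact_mk, cact_mk, cH_g, hy.g_eq, w0, k0.act_φ, k0.act_φ, gT_e8, map_add, φ_e8 (some 1), w0]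
    generalize cact cT (w0 k0) = ω at *
    generalize cε cT (w0 k0) = ε at *
    have h2 : ∀ v s t, v = ω ∨ v = ω + w0 k0 → ∃ n ∈ Nxyz k0, n * q k0 s v * n⁻¹ = q k0 t v := fun v s t hv => by
      obtain ⟨n, n1, n2⟩ := exists_om_two w0_ne_zero hω0 hω1 0 (s + t)
      refine ⟨q k0 0 n, q_mem_Nxyz.2 n1, ?_⟩
      rw [conj_q, cε_q, cact_q, show om n v = s + t by rcases hv with rfl | rfl <;> simp [om_add_right, n1, n2],
        ← add_assoc, z2_add_self, zero_add]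
    have h3 : ∀ v t, v = ω ∨ v = ω + w0 k0 → ∃ n ∈ (Nxyz k0).map (piV k0),
        n * piV k0 (q k0 ε ω) = piV k0 (q k0 t v) * n := by
      rintro v t (rfl | rfl)
      · obtain ⟨n, a, b⟩ := h2 v ε t (Or.inl rfl)
        exact ⟨_, ⟨n, a, rfl⟩, by rw [← b, ← map_mul, ← map_mul, inv_mul_cancel_right]⟩
      · obtain ⟨n, a, b⟩ := h2 _ (ε + cε (mk k0 y) ω) t (Or.inr rfl)
        refine ⟨_, ⟨n * mk k0 y, mul_mem a (hs.isY_mem_Nxyz hy), rfl⟩, ?_⟩
        rw [← b, ← h1, ← conj_q, ← map_mul, ← map_mul]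
        congr 1; group
    rcases he with rfl | rfl | rfl <;> simp only [← map_mul, z, q_mul, add_zero, zero_add]
    exacts [h3 _ _ (Or.inl rfl), h3 _ _ (Or.inr rfl), h3 _ _ (Or.inr rfl)]
  · have h3 := UU_le (p := (rad3 k0 (GG k0)).comap ((LinearMap.id + rho k0 (q k0 1 (w0 k0))) ∘ₗ
      (LinearMap.id + rho k0 (z k0)))) (fun i j => ?_) (fun w hw => ?_) (fun i k => ?_) x.2
    · have e1 : rho k0 (z k0) x.1 = x.1 := congrArg Subtype.val h1
      have e2 : rho k0 (q k0 1 (w0 k0)) x.1 = x.1 := congrArg Subtype.val h2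
      rw [Submodule.mem_comap, LinearMap.comp_apply, LinearMap.add_apply, LinearMap.add_apply,
        LinearMap.id_apply, LinearMap.id_apply, e1, map_add, e2] at h3
      have h4 : x.1 ∈ rad3 k0 (GG k0) := by
        generalize x.1 = u at h3
        convert Submodule.smul_mem _ (1 / 4 : ℚ) h3 using 1; module
      exact mem_rad3.1 h4 _ y.2 _ w.2
    all_goals simp only [Submodule.mem_comap, LinearMap.comp_apply, LinearMap.add_apply, LinearMap.id_apply]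
    · simp only [map_add, rho_z_An, rho_q_An]
      exact add_mem (add_mem (hA i j) (hA i j)) (add_mem (hA i j) (hA i j))
    · simp only [map_add, rho_z_Xw, rho_q_Xw]
      rcases z2_cases (om (w0 k0) w) with e | e
      · have := hX w hw e
        exact add_mem (add_mem this this) (add_mem (Submodule.smul_mem _ _ this) (Submodule.smul_mem _ _ this))
      · simp [e]
    · simp [rho_z_Tn]

end CfsgLib.MonRep
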