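import Mathlib
import Cfsg.Agent.Lib.MonRep.Gr4
import Cfsg.Agent.Lib.MonRep.Red

/-!
The Norton pair.
-/

set_option autoImplicit false

namespace CfsgLib.MonRep

open Cfsg CfsgLib.Leech CfsgLib.MType CfsgLib.Mon Matrix Finset Module

theorem norton_of_tri {G : Type*} [Group G] [Finite G] {V : Type} [AddCommGroup V] [Module ℚ V]
    [FiniteDimensional ℚ V] (σ : Representation ℚ G V) {k : ℕ} (hk : finrank ℚ V = k)
    (hi : Function.Injective σ)
    (hE : ∀ θ : Module.End ℚ V, (∀ g x, θ (σ g x) = σ g (θ x)) → ∃ c : ℚ, ∀ x, θ x = c • x)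
    (B : LinearMap.BilinForm ℚ V) (hB : ∀ x, B x x = 0 → x = 0) (hB' : ∀ g x y, B (σ g x) (σ g y) = B x y)
    (F : V →ₗ[ℚ] V →ₗ[ℚ] V →ₗ[ℚ] ℚ) (h0 : F ≠ 0) (hc : ∀ x y w, F x y w = F y x w)
    (hF : ∀ g x y w, F (σ g x) (σ g y) (σ g w) = F x y w)
    (hu : ∀ F' : V →ₗ[ℚ] V →ₗ[ℚ] V →ₗ[ℚ] ℚ, (∀ g x y w, F' (σ g x) (σ g y) (σ g w) = F' x y w) →
      ∃ c : ℚ, F' = c • F) : ∃ ρ : Representation ℝ G (Fin k → ℝ), Norton ρ := by
  have hn : B.Nondegenerate := ⟨fun x h => hB x (h x), fun x h => hB x (h x)⟩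
  have h1 : ∀ {x y : V}, (∀ w, B x w = B y w) → x = y := fun {x y} h =>
    sub_eq_zero.1 (hn.1 _ fun w => by rw [map_sub, LinearMap.sub_apply, h, sub_self])
  obtain ⟨m, hm⟩ : ∃ m : V →ₗ[ℚ] V →ₗ[ℚ] V, ∀ x y w, B (m x y) w = F x y w :=
    ⟨F.compr₂ (B.toDual hn).symm.toLinearMap, fun x y w =>
      LinearMap.BilinForm.apply_toDual_symm_apply (hB := hn) _ _⟩
  refine norton_of_rat σ hk hi hE m (fun e => h0 ?_) (fun u v => h1 fun w => by rw [hm, hm, hc])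
    (fun g u v => h1 fun w => by rw [← σ.self_inv_apply g w, hm, hF, hB', hm]) fun m' h => ?_
  · exact LinearMap.ext₂ fun x y => LinearMap.ext fun w => by rw [← hm, e]; simp
  · obtain ⟨c, e⟩ := hu (m'.compr₂ B) fun g x y w => by simp only [LinearMap.compr₂_apply, h, hB']
    refine ⟨c, LinearMap.ext₂ fun x y => h1 fun w => ?_⟩
    simpa [hm] using LinearMap.congr_fun (LinearMap.congr_fun₂ e x y) w

theorem tri_of_emb {G : Type*} [Group G] {π : C k0 →* G} {τ : G} (h : MAm π τ)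
    (hg : Subgroup.closure (Set.range π ∪ {τ}) = ⊤) (hT : InvBy k0 (FG k0) (tau k0)) {V : Type}
    [AddCommGroup V] [Module ℚ V] (σ : Representation ℚ G V) (ι : V →ₗ[ℚ] VV) (P : VV →ₗ[ℚ] V)
    (h1 : ∀ x, ι x ∈ UU k0) (h2 : ∀ x, P (ι x) = x) (h3 : ∀ u ∈ UU k0, ι (P u) = p0 u)
    (h4 : ∀ c x, ι (σ (π c) x) = rho k0 c (ι x)) (h5 : ∀ x, ι (σ τ x) = tau k0 (ι x)) :
    pull3 (FG k0) ι ≠ 0 ∧ (∀ g x y w, pull3 (FG k0) ι (σ g x) (σ g y) (σ g w) = pull3 (FG k0) ι x y w) ∧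
      ∀ F' : V →ₗ[ℚ] V →ₗ[ℚ] V →ₗ[ℚ] ℚ, (∀ g x y w, F' (σ g x) (σ g y) (σ g w) = F' x y w) →
        ∃ c : ℚ, F' = c • pull3 (FG k0) ι := by
  have hp : (none : GolayPt) ≠ some 0 := by decide
  have hi : Function.Injective ι := Function.LeftInverse.injective h2
  have hF : ∀ g x y w, pull3 (FG k0) ι (σ g x) (σ g y) (σ g w) = pull3 (FG k0) ι x y w :=
    gen_ind hg h.cube (p := fun g => ∀ x y w, pull3 (FG k0) ι (σ g x) (σ g y) (σ g w) = pull3 (FG k0) ι x y w)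
      (fun c x y w => by simp only [pull3_apply, h4]; exact FG_rho c _ (h1 x) _ (h1 y) _ (h1 w))
      (fun x y w => by simp only [pull3_apply, h5]; exact hT _ (h1 x) _ (h1 y) _ (h1 w))
      fun a b ha hb x y w => by simp only [map_mul, Module.End.mul_apply, ha, hb]
  have h0 : kF k0 none (some 0) (pull3 (pull3 (FG k0) ι) P) = -32 := by
    rw [kF, pull3_apply, pull3_apply, h3 _ (An_mem _ _), h3 _ (Xw_mem (isShort_ub hp)), p0_of (trV_Xw _),
      p0_of (by rw [trV_An, ep_dot, if_neg hp, mul_zero]), An, FG_AX, Mv_ub hp]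
    simp [mdot_vec, Xw, uv, ep_dot, vecMulVec_mulVec]
    norm_num
  refine ⟨fun e => by simp [e, kF, pull3_apply] at h0, hF, fun F' h' => ?_⟩
  generalize pull3 (FG k0) ι = F at hF h0 ⊢
  refine ⟨kF k0 none (some 0) (pull3 F' P) / -32, LinearMap.ext₂ fun x y => LinearMap.ext fun w => ?_⟩
  generalize hc : kF k0 none (some 0) (pull3 F' P) / -32 = c
  have e : ∀ x y w, pull3 (F' - c • F) P x y w = F' (P x) (P y) (P w) - c * F (P x) (P y) (P w) :=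
    fun _ _ _ => rfl
  have e1 : ∀ a, ∀ x ∈ UU k0, P (rho k0 a x) = σ (π a) (P x) := fun a x hx =>
    hi (by rw [h4, h3 _ hx, h3 _ (rho_mem a hx), p0_rho])
  have e2 : ∀ x ∈ UU k0, P (tau k0 x) = σ τ (P x) := fun x hx =>
    hi (by rw [h5, h3 _ hx, h3 _ (std_k0.tau_mem hx), p0_tau std_k0 hx])
  have e3 : P idV = 0 := hi (by rw [h3 _ idV_mem, p0_idV, map_zero])
  have := tri_zero std_k0 hp (F := pull3 (F' - c • F) P)
    (fun a x hx y hy w hw => by rw [e, e, e1 a x hx, e1 a y hy, e1 a w hw, h', hF])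
    (fun x hx y hy w hw => by rw [e, e, e2 x hx, e2 y hy, e2 w hw, h', hF])
    (fun y _ w _ => by simp [pull3_apply, e3])
    (by rw [kF, e, ← pull3_apply F, ← pull3_apply F', ← kF, ← kF, h0, ← hc]; ring) (h1 x) (h1 y) (h1 w)
  rw [e, h2, h2, h2] at this
  exact sub_eq_zero.1 this

theorem MRep.norton {G : Type*} [Group G] [Finite G] [IsSimpleGroup G] {π : C k0 →* G} {τ : G}
    {f : G →* GU k0} (h : MRep π τ f) (hV : MAm (piV k0) std_k0.tauV) :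
    ∃ ρ : Representation ℝ G (Fin 196883 → ℝ), Norton ρ := by
  let ι : V0 k0 →ₗ[ℚ] VV := (UU k0).subtype ∘ₗ (V0 k0).subtype
  obtain ⟨a, b, c⟩ := tri_of_emb h.am h.gen (FG_tau hV fun x hx y hy => h.bt_tau hx hy) (V := V0 k0) h.rep0
    ι (pr k0) (fun x => x.1.2) pr_coe (fun u => coe_pr) h.coe_rep0_pi
    h.coe_rep0_tau
  exact norton_of_tri (V := V0 k0) h.rep0 finrank_V0 (fun a b e => inj_of_ne h.rep0.asGroupHom (g := π (z k0))
    (fun e => h.rep0_z (congrArg Units.val e)) (Units.ext e)) h.end_scalar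
    (bt.compl₁₂ ι ι)
    (fun x e => Subtype.ext (Subtype.ext (bt_eq_zero e))) (fun g x y => h.bt_rep g x.1 y.1) _ a
    (fun x y w => FG_comm _ _ _) b c

end CfsgLib.MonRep
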