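import Mathlib
import Cfsg.Agent.Lib.MonRep.Nort
import Cfsg.Agent.Lib.MonRep.MinM
import Cfsg.Agent.Lib.Mon.TauM
import Cfsg.Agent.Lib.MonK.Dce

/-!
Statements for any group isomorphic to the amalgamated product.
-/

set_option autoImplicit false

namespace CfsgLib.MonRep

open Cfsg CfsgLib.Leech CfsgLib.MType CfsgLib.Mon

variable {G : Type*} [Group G]

theorem core5528 (e : MU ≃* G) (n : ℕ) (ρ : G →* GL (Fin n) ℂ) (hρ : Function.Injective ρ) : 196883 ≤ n :=
  have h := MonK.ms_MU
  have := h.simple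
  have := h.finite
  le_degree mam_MU gen_MU (fun a => z_ne_one (h.inj (a.trans (map_one _).symm))) h.card_G n
    (ρ.comp e.toMonoidHom) (hρ.comp e.injective)

theorem core5540 (e : MU ≃* G) : ∃ ρ : Representation ℝ G (Fin 196883 → ℝ), Norton ρ :=
  have h := MonK.ms_MU
  have := h.simple
  have := h.finite
  have := e.symm.isSimpleGroup
  have := Finite.of_equiv _ e.toEquiv
  let ⟨_, k⟩ := exists_mrep mam_V
  (k.congr e).norton mam_V

end CfsgLib.MonRep
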